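import Cfsg.Agent.H24.Adj

/-!
# Cyclic symplectic elements (namespace `H24.Adj`)

* `exists_lam` : `F[X]/(f)` is a Frobenius algebra
* `exists_sp_cyc` : an element `A` of `Sp_{2n}` acting on `R × R`, `R = F[X]/(f)`, as `(a, b) ↦ (x a - b, a)`
* `charpoly_sp_reverse` : characteristic polynomials in `Sp` are palindromic
-/

set_option autoImplicit false

open Module Polynomial Matrix

namespace H24.Adj

variable {F : Type*} [Field F]

theorem exists_lam {f : F[X]} (hf : f.Monic) :
    ∃ l : AdjoinRoot f →ₗ[F] F, ∀ a, (∀ b, l (a * b) = 0) → a = 0 := by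
  refine ⟨lcoeff F (f.natDegree - 1) ∘ₗ AdjoinRoot.modByMonicHom hf, fun a h => ?_⟩
  obtain ⟨p, hp, rfl⟩ : ∃ p : F[X], p.degree < f.degree ∧ AdjoinRoot.mk f p = a := by
    obtain ⟨p, rfl⟩ := AdjoinRoot.mk_surjective a
    exact ⟨p %ₘ f, degree_modByMonic_lt _ hf, AdjoinRoot.mk_leftInverse hf (AdjoinRoot.mk f p)⟩
  by_cases h0 : p = 0
  · simp [h0]
  have h1 := natDegree_lt_natDegree h0 hp
  have := h (AdjoinRoot.mk f (X ^ (f.natDegree - 1 - p.natDegree)))
  rw [← map_mul, LinearMap.comp_apply, AdjoinRoot.modByMonicHom_mk, (modByMonic_eq_self_iff hf).2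
    (degree_lt_degree (by rw [natDegree_mul_X_pow _ h0]; omega)), lcoeff_apply,
    show f.natDegree - 1 = p.natDegree + (f.natDegree - 1 - p.natDegree) by omega, coeff_mul_X_pow'] at this
  simp [h0] at this

theorem exists_sp_cyc {f : F[X]} (hf : f.Monic) {n : ℕ} (hn : f.natDegree = n) :
    ∃ (A : symplecticGroup (Fin n) F) (e : (AdjoinRoot f × AdjoinRoot f) ≃ₗ[F] (Fin n ⊕ Fin n → F)),
      ∀ a b, A.1 *ᵥ e (a, b) = e (AdjoinRoot.root f * a - b, a) := by
  obtain ⟨l, hl⟩ := exists_lam hf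
  haveI := Sim.finite_adjoinRoot hf.ne_zero
  let B : LinearMap.BilinForm F (AdjoinRoot f × AdjoinRoot f) := LinearMap.mk₂ F
    (fun x y => l (x.1 * y.2 - x.2 * y.1)) (fun x y z => by simp only [← map_add, Prod.fst_add, Prod.snd_add]; ring_nf)
    (fun c x y => by simp [mul_sub]) (fun x y z => by simp only [← map_add, Prod.fst_add, Prod.snd_add]; ring_nf)
    (fun c x y => by simp [mul_sub])
  have hB : ∀ x y, B x y = l (x.1 * y.2 - x.2 * y.1) := fun _ _ => rfl
  have hA : B.IsAlt := fun x => by simp [hB, mul_comm]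
  obtain ⟨e, he⟩ := H09.exists_equiv_spB (B := B) (hA.isRefl.nondegenerate_iff_separatingLeft.2 fun x hx =>
    Prod.ext (hl _ fun b => by simpa [hB] using hx (0, b)) (hl _ fun b => by simpa [hB] using hx (b, 0))) hA
    (m := n) (by rw [finrank_prod, Sim.finrank_adjoinRoot]; omega)
  let M : End F (AdjoinRoot f × AdjoinRoot f) :=
    LinearMap.prod (Algebra.lmul F _ (AdjoinRoot.root f) ∘ₗ LinearMap.fst F _ _ - LinearMap.snd F _ _) (LinearMap.fst F _ _)
  have hM : ∀ x, M x = (AdjoinRoot.root f * x.1 - x.2, x.1) := fun _ => rfl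
  refine ⟨H09.spOfLinear (e.conj M) fun u v => ?_, e, fun a b => ?_⟩
  · rw [LinearEquiv.conj_apply_apply, LinearEquiv.conj_apply_apply, he, ← e.apply_symm_apply u, ← e.apply_symm_apply v, he]
    simp only [LinearEquiv.symm_apply_apply, hB, hM]; ring_nf
  · refine (H09.spOfLinear_smul _ _ _).trans ?_
    rw [LinearEquiv.conj_apply_apply, e.symm_apply_apply, hM]

theorem charpoly_sp_reverse {n : ℕ} (A : symplecticGroup (Fin n) F) : A.1.charpoly.reverse = A.1.charpoly := by
  have h1 := charpoly_inv A.1 ((isUnit_iff_isUnit_det _).2 (SymplecticGroup.symplectic_det A.2))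
  rw [← SymplecticGroup.coe_inv', SymplecticGroup.coe_inv, charpoly_mul_comm, ← mul_assoc, mul_neg, J_squared,
    SymplecticGroup.det_eq_one A.2, ← reverse_charpoly] at h1
  simpa [← two_mul] using h1.symm

end H24.Adj
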