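import Cfsg.Agent.BG.Api
import Cfsg.Agent.H04.Critical
import Cfsg.Agent.H04.Class2
import Cfsg.Agent.H01.Coprime2

/-!
# Baer's trick (groups of odd order and class two become abelian) and Bender's `P × Q` lemma

* `H24.Baer.Data H`, `Baer.T d` : the commutative group `x ∘ y = [y,x]^{1/2} x y` on a group of class two,
  `Baer.aut` (automorphisms of `H` act on it), `Baer.pow_eq`.
* `H24.bender_aut` : automorphism form for class two.
* `H24.bender_PQ` (S3737): `p` odd, `P` a `p`-group normalizing the `p'`-group `Q`, `PQ` acting on the `p`-group `G`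
  with `C_G(P) ≤ C_G(Q)`; then `[G, Q] = 1`.
* `H24.bender_PQ_omega`: it is enough that the elements of order `p` of `C_G(P)` centralize `Q`.
-/

set_option autoImplicit false
open Cfsg BG Subgroup
open scoped commutatorElement

namespace H24
namespace Baer

/-- data for the Baer construction -/
structure Data (H : Type*) [Group H] where
  m : ℕ
  hm : ∀ c : H, c ^ m * c ^ m = c
  hc : ∀ x y : H, ⁅x, y⁆ ∈ center H

variable {H : Type*} [Group H] (d : Data H)

/-- square root of the commutator -/
def β (x y : H) : center H := (⟨⁅x, y⁆, d.hc x y⟩ : center H) ^ d.m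

theorem cc (a b : center H) : Commute a b := Subtype.ext (H04.commute_of_mem_center a.2 b).eq

theorem β_mul_left (x y z : H) : β d (x * y) z = β d x z * β d y z := by
  rw [β, β, β, ← (cc _ _).mul_pow]; congr 1
  exact Subtype.ext (H04.commutatorElement_mul_left_of_center (d.hc y z))

theorem β_mul_right (x y z : H) : β d x (y * z) = β d x y * β d x z := by
  rw [β, β, β, ← (cc _ _).mul_pow]; congr 1
  exact Subtype.ext (H04.commutatorElement_mul_right_of_center (d.hc x z))

theorem β_of_commute {x y : H} (h : Commute x y) : β d x y = 1 := by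
  rw [β]
  have : (⟨⁅x, y⁆, d.hc x y⟩ : center H) = 1 := Subtype.ext (commutatorElement_eq_one_iff_commute.2 h)
  rw [this, one_pow]

theorem β_center_left (c : center H) (y : H) : β d c y = 1 :=
  β_of_commute d (H04.commute_of_mem_center c.2 y)

theorem β_center_right (y : H) (c : center H) : β d y c = 1 :=
  β_of_commute d (H04.commute_of_mem_center c.2 y).symm

theorem β_symm (x y : H) : (β d y x : H) * ⁅x, y⁆ = β d x y := by
  have h1 : (β d y x : H) = (⁅x, y⁆ ^ d.m)⁻¹ := by
    rw [← inv_pow, commutatorElement_inv]; rfl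
  rw [h1, inv_mul_eq_iff_eq_mul]
  exact (d.hm _).symm

/-- the underlying type -/
def T (_ : Data H) : Type _ := H

/-- identity map to the Baer group -/
def of (x : H) : T d := x
/-- identity map from the Baer group -/
def val (x : T d) : H := x

instance instCommGroup : CommGroup (T d) where
  mul x y := of d (β d (val d y) (val d x) * (val d x * val d y))
  one := of d 1
  inv x := of d (val d x)⁻¹
  mul_assoc x y z := by
    change (β d (val d z) (β d (val d y) (val d x) * (val d x * val d y)) : H) *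
        (β d (val d y) (val d x) * (val d x * val d y) * val d z) =
      β d (β d (val d z) (val d y) * (val d y * val d z)) (val d x) *
        (val d x * (β d (val d z) (val d y) * (val d y * val d z)))
    generalize val d x = a, val d y = b, val d z = c
    simp only [β_mul_left, β_mul_right, β_center_left, β_center_right, one_mul]
    rw [← mul_assoc a, mem_center_iff.1 (β d c b).2 a]
    simp only [mul_assoc, ← mul_assoc (β d _ _ * β d _ _ : center H).1, ← coe_mul]
    congr 2
    rw [(cc (β d b a) _).eq, mul_assoc]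
  one_mul x := by
    change (β d (val d x) 1 : H) * (1 * val d x) = val d x
    rw [β_of_commute d (Commute.one_right _)]; simp
  mul_one x := by
    change (β d 1 (val d x) : H) * (val d x * 1) = val d x
    rw [β_of_commute d (Commute.one_left _)]; simp
  inv_mul_cancel x := by
    change (β d (val d x) (val d x)⁻¹ : H) * ((val d x)⁻¹ * val d x) = 1
    rw [β_of_commute d (Commute.refl _).inv_right]; simp
  mul_comm x y := by
    change (β d (val d y) (val d x) : H) * (val d x * val d y) = β d (val d x) (val d y) * (val d y * val d x)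
    rw [H04.mul_eq_commutatorElement_mul (val d x), ← mul_assoc, β_symm]

theorem val_mul (x y : T d) : val d (x * y) = β d (val d y) (val d x) * (val d x * val d y) := rfl

theorem val_pow (x : T d) (n : ℕ) : val d (x ^ n) = val d x ^ n := by
  induction n with
  | zero => rw [pow_zero, pow_zero]; rfl
  | succ n ih =>
    rw [pow_succ, val_mul, ih, β_of_commute d (Commute.self_pow _ _), pow_succ]; simp

/-- automorphisms of `H` act on the Baer group -/
def aut (a : MulAut H) : T d →* T d := MonoidHom.mk' (fun x => of d (a (val d x))) (by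
  intro x y
  change a (val d (x * y)) = (β d (a (val d y)) (a (val d x)) : H) * (a (val d x) * a (val d y))
  rw [val_mul, map_mul, map_mul]
  congr 1
  simp only [β, coe_pow, map_pow, map_commutatorElement])

end Baer

theorem bender_aut {p : ℕ} [hp : Fact p.Prime] (hp2 : p ≠ 2) {H B : Type*} [Group H] [Finite H] [Group B]
    (hH : IsPGroup p H) (hc : ∀ x y : H, ⁅x, y⁆ ∈ center H) (θ : B →* MulAut H) {P Q : Subgroup B} [Finite Q]
    (hP : IsPGroup p P) (hQ : (Nat.card Q).Coprime p) (hPQ : P ≤ N_(Q))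
    (hC : ∀ x, (∀ a ∈ P, θ a x = x) → ∀ q ∈ Q, θ q x = x) : ∀ q ∈ Q, ∀ x, θ q x = x := by
  classical
  obtain ⟨k, hk⟩ := IsPGroup.iff_card.1 hH
  obtain ⟨r, hr⟩ : Odd (Nat.card H) := hk ▸ (hp.out.odd_of_ne_two hp2).pow
  let d : Baer.Data H := ⟨r + 1, fun c => by
    rw [← pow_add, show r + 1 + (r + 1) = (2 * r + 1) + 1 by ring, ← hr, pow_succ, pow_card_eq_one', one_mul], hc⟩
  haveI := Fintype.ofFinite Q
  haveI : Finite (Baer.T d) := (inferInstance : Finite H)
  let N : Baer.T d →* Baer.T d := ∏ q : Q, Baer.aut d (θ q)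
  have hN : ∀ x, N x = ∏ q : Q, Baer.aut d (θ q) x := fun x => MonoidHom.finsetProd_apply _ _ _
  have hcomp : ∀ (a b : B) (x : Baer.T d), Baer.aut d (θ a) (Baer.aut d (θ b) x) = Baer.aut d (θ (a * b)) x := by
    intro a b x; rw [map_mul]; rfl
  have hfix : ∀ x, ∀ q ∈ Q, Baer.aut d (θ q) (N x) = N x := by
    intro x q hq
    rw [hN, map_prod]
    exact Fintype.prod_equiv (Equiv.mulLeft (⟨q, hq⟩ : Q)) _ _ fun r => hcomp _ _ _
  have hker : ∀ a ∈ P, ∀ x, N x = 1 → N (Baer.aut d (θ a) x) = 1 := by
    intro a ha x hx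
    have : N (Baer.aut d (θ a) x) = Baer.aut d (θ a) (N x) := by
      rw [hN, hN, map_prod]
      symm
      refine Fintype.prod_equiv (H01.conjHom hPQ ⟨a, ha⟩).toEquiv _ _ fun r => ?_
      rw [hcomp, hcomp]
      congr 3
      change a * r = a * r * a⁻¹ * a
      group
    rw [this, hx, map_one]
  by_cases hb : N.ker = ⊥
  · intro q hq x
    obtain ⟨y, hy⟩ := Finite.injective_iff_surjective.1 (N.ker_eq_bot_iff.1 hb) (Baer.of d x)
    have := hfix y q hq
    rw [hy] at this
    exact this
  exfalso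
  letI : MulAction P N.ker :=
    { smul := fun a x => ⟨Baer.aut d (θ a) x, hker a a.2 x x.2⟩
      one_smul := fun x => Subtype.ext (by
        change Baer.aut d (θ 1) x = x
        rw [map_one]; rfl)
      mul_smul := fun a b x => Subtype.ext (hcomp _ _ _).symm }
  have hd : p ∣ Nat.card N.ker := by
    have h1 : Nat.card N.ker ∣ p ^ k := hk ▸ card_subgroup_dvd_card N.ker
    obtain ⟨j, -, hj⟩ := (Nat.dvd_prime_pow hp.out).1 h1
    rcases j with _ | j
    · exact absurd (Subgroup.card_eq_one.1 (by simpa using hj)) hb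
    · exact hj ▸ dvd_pow_self _ (Nat.succ_ne_zero j)
  obtain ⟨x, hx, hx1⟩ := hP.exists_fixed_point_of_prime_dvd_card_of_fixed_point N.ker hd (a := 1)
    (fun a => Subtype.ext (map_one (Baer.aut d (θ a))))
  have h1 := hC (Baer.val d x.1) fun a ha => congrArg Subtype.val (hx ⟨a, ha⟩)
  have h2 : N x.1 = x.1 ^ Nat.card Q := by
    have h5 : ∀ q : Q, Baer.aut d (θ q) x.1 = x.1 := fun q => h1 q q.2
    rw [hN]
    simp [h5]
  have h3 : Baer.val d x.1 ^ Nat.card Q = 1 := by
    rw [← Baer.val_pow, ← h2, x.2]; rfl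
  obtain ⟨j, hj⟩ := hH (Baer.val d x.1)
  have h4 : Baer.val d x.1 = 1 := orderOf_eq_one_iff.1 (Nat.eq_one_of_dvd_coprimes (hQ.pow_right j)
    (orderOf_dvd_of_pow_eq_one h3) (orderOf_dvd_of_pow_eq_one hj))
  exact hx1 (Subtype.ext h4.symm)

theorem bender_PQ_omega {X : Type*} [Group X] [Finite X] {p : ℕ} [Fact p.Prime] (hp : p ≠ 2) {P Q G : Subgroup X}
    (hP : IsPGroup p P) (hQ : (Nat.card Q).Coprime p) (hPQ : P ≤ N_(Q)) (hG : IsPGroup p G) (hPG : P ≤ N_(G))
    (hQG : Q ≤ N_(G)) (hC : ∀ x ∈ G, x ∈ C_(P) → x ^ p = 1 → x ∈ C_(Q)) : Q ≤ C_(G) := by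
  obtain ⟨K, hK, he, hc, ha⟩ := H04.exists_critical_exponent_p hp hG
  set K' := K.map G.subtype with hK'
  have hn : N_(G) ≤ N_(K') := H02.normalizer_le_normalizer_map_subtype K
  have hle : K' ≤ G := map_subtype_le _
  have key := bender_aut hp (hG.to_le hle) (H := K') (B := N_(K')) (fun x y => by
      obtain ⟨_, a, ha, rfl⟩ := x
      obtain ⟨_, b, hb, rfl⟩ := y
      refine mem_center_iff.2 ?_
      rintro ⟨_, c, hc', rfl⟩
      exact Subtype.ext (congrArg G.subtype ((hc (commutator_mem_commutator ha (mem_top b))).2 c hc')))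
    (H01.conjHom le_rfl) (P := P.subgroupOf _) (Q := Q.subgroupOf _)
    (hP.comap_subtype) (by rwa [H02.card_subgroupOf_of_le (hQG.trans hn)])
    (fun a ha => by
      rw [mem_normalizer_iff]
      intro q
      exact mem_normalizer_iff.1 (hPQ ha) q)
    (fun x hx q hq => by
      have h1 : (x : X) ∈ C_(P) := fun a ha => by
        have := congrArg Subtype.val (hx ⟨a, hn (hPG ha)⟩ ha)
        change a * x * a⁻¹ = x at this
        exact mul_inv_eq_iff_eq_mul.1 this
      have h2 : (x : X) ^ p = 1 := by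
        obtain ⟨_, a, ha, rfl⟩ := x
        exact congrArg G.subtype (he a ha)
      have := hC x (hle x.2) h1 h2 q hq
      exact Subtype.ext (mul_inv_eq_iff_eq_mul.2 this))
  intro q hq g hg
  have h1 := ha (H01.conjHom hQG ⟨q, hq⟩) ((hQ.coprime_dvd_left (orderOf_dvd_natCard (⟨q, hq⟩ : Q))).coprime_dvd_left
    (orderOf_map_dvd _ _)) fun x hx => Subtype.ext
      (congrArg Subtype.val (key ⟨q, hn (hQG hq)⟩ hq ⟨x, mem_map_of_mem _ hx⟩) :)
  have h2 := congrArg Subtype.val (DFunLike.congr_fun h1 ⟨g, hg⟩)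
  change q * g * q⁻¹ = g at h2
  exact (mul_inv_eq_iff_eq_mul.1 h2).symm

theorem bender_PQ {X : Type*} [Group X] [Finite X] {p : ℕ} [Fact p.Prime] (hp : p ≠ 2) {P Q G : Subgroup X}
    (hP : IsPGroup p P) (hQ : (Nat.card Q).Coprime p) (hPQ : P ≤ N_(Q)) (hG : IsPGroup p G) (hPG : P ≤ N_(G))
    (hQG : Q ≤ N_(G)) (hC : G ⊓ C_(P) ≤ C_(Q)) : Q ≤ C_(G) :=
  bender_PQ_omega hp hP hQ hPQ hG hPG hQG fun _ h1 h2 _ => hC ⟨h1, h2⟩

end H24
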