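import Cfsg.Agent.H19.Dm0
import Cfsg.Agent.S0111

/-!
# The 3-local characterization of `S₈`: case B with small centralizer of `t`
-/

set_option autoImplicit false
set_option synthInstance.maxSize 4000

namespace H24.DmB3
open Equiv Subgroup H19.Dm

variable {G : Type*} [Group G]

/-- a subgroup extended by a normalising involution -/
def ext (N : Subgroup G) (s : G) (s2 : s * s = 1) (hn : ∀ g ∈ N, s * g * s ∈ N) : Subgroup G where
  carrier := {g | g ∈ N ∨ g * s ∈ N}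
  one_mem' := Or.inl N.one_mem
  mul_mem' := by
    rintro a b (ha | ha) (hb | hb)
    · exact Or.inl (N.mul_mem ha hb)
    · exact Or.inr (by rw [mul_assoc]; exact N.mul_mem ha hb)
    · refine Or.inr ?_
      have := N.mul_mem ha (hn b hb)
      rwa [show a * s * (s * b * s) = a * (s * s) * b * s by group, s2, mul_one] at this
    · refine Or.inl ?_
      have := N.mul_mem ha (hn _ hb)
      rwa [show a * s * (s * (b * s) * s) = a * (s * s) * b * (s * s) by group, s2, mul_one, mul_one] at this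
  inv_mem' := by
    rintro a (ha | ha)
    · exact Or.inl (N.inv_mem ha)
    · refine Or.inr ?_
      have := hn _ (N.inv_mem ha)
      rwa [mul_inv_rev, inv_eq_of_mul_eq_one_right s2, ← mul_assoc, s2, one_mul] at this

theorem mem_ext {N : Subgroup G} {s : G} {s2 : s * s = 1} {hn : ∀ g ∈ N, s * g * s ∈ N} {g : G} :
    g ∈ ext N s s2 hn ↔ g ∈ N ∨ g * s ∈ N := Iff.rfl

theorem rel2 {N T : Subgroup G} {s : G} {s2 : s * s = 1} {hn : ∀ g ∈ N, s * g * s ∈ N} (hs : s ∉ N) (hT : T ≤ ext N s s2 hn)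
    (sT : s ∈ T) : N.relIndex T = 2 := by
  refine relIndex_eq_two_iff.2 ⟨s, sT, fun b hb => ?_⟩
  have k : ¬ (b * s ∈ N ∧ b ∈ N) := fun ⟨x, y⟩ => hs ((N.mul_mem_cancel_left y).1 x)
  rcases mem_ext.1 (hT hb) with e | e
  · exact Or.inr ⟨e, fun x => k ⟨x, e⟩⟩
  · exact Or.inl ⟨e, fun x => k ⟨e, x⟩⟩

theorem card_ext {N : Subgroup G} {s : G} {s2 : s * s = 1} {hn : ∀ g ∈ N, s * g * s ∈ N} (hs : s ∉ N) :
    Nat.card (ext N s s2 hn) = 2 * Nat.card N := by
  have le : N ≤ ext N s s2 hn := fun g hg => Or.inl hg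
  have r : N.relIndex (ext N s s2 hn) = 2 := rel2 hs le_rfl (Or.inr (by rw [s2]; exact N.one_mem))
  rw [← (N.subgroupOf (ext N s s2 hn)).index_mul_card, Nat.card_congr (subgroupOfEquivOfLe le).toEquiv]
  exact congrArg (· * _) r

def uu : A5 := ⟨swap 0 1 * swap 3 4, Perm.mem_alternatingGroup.2 (by decide +kernel)⟩

theorem d1 : ∀ x : A5, x * x = 1 → x = 1 ∨ ∃ a : A5, x = a * uu * a⁻¹ := by decide +kernel
theorem d2 : ∀ x : A5, x * tw x = 1 → ∃ a : A5, x = a * tw a⁻¹ := by decide +kernel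
theorem d3 : ∀ x : A5, tw (tw x) = x := by decide +kernel
theorem d4 : t * t = 1 ∧ t ≠ 1 ∧ t * (z * z') = z * z' * t ∧ z * z' = z' * z ∧ tw 1 = 1 ∧ u * u = 1 := by decide +kernel

variable {F : P35 →* G} {s : G} {φ : A5 × A5 →* G}

theorem tt : F t * F t = 1 := by rw [← map_mul, d4.1, map_one]

theorem ns (k : HB F s φ) : ∀ g ∈ φ.range, s * g * s ∈ φ.range := by
  rintro _ ⟨⟨x, y⟩, rfl⟩
  exact ⟨(y, x), (k.cs x y).symm⟩

theorem nt (k : HB F s φ) : ∀ g ∈ φ.range, F t * g * F t ∈ φ.range := by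
  rintro _ ⟨⟨x, y⟩, rfl⟩
  exact ⟨_, (k.ct x y).symm⟩

/-- the subgroup `N ⟨s⟩` -/
def M1 (h : Hy F s) (k : HB F s φ) : Subgroup G := ext φ.range s h.s2 (ns k)

theorem nt1 (h : Hy F s) (k : HB F s φ) : ∀ g ∈ M1 h k, F t * g * F t ∈ M1 h k := by
  rintro g (e | e)
  · exact Or.inl (nt k g e)
  · refine Or.inr ?_
    have := nt k _ e
    rwa [mul_assoc, mul_assoc, h.st, ← mul_assoc, ← mul_assoc] at this

/-- the subgroup `N ⟨s, t⟩` -/
def G0 (h : Hy F s) (k : HB F s φ) : Subgroup G := ext (M1 h k) (F t) tt (nt1 h k)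

theorem tM (h : Hy F s) (k : HB F s φ) : F t ∉ M1 h k := by
  rintro (e | e)
  · exact k.nt e
  · exact k.nst (h.st ▸ e)

theorem card0 (h : Hy F s) (k : HB F s φ) : Nat.card (G0 h k) = 14400 := by
  rw [G0, card_ext (tM h k), M1, card_ext k.ns, ← Nat.card_congr (MonoidHom.ofInjective k.inj).toEquiv, Nat.card_prod]
  have : Nat.card A5 = 60 := by
    rw [nat_card_alternatingGroup]; simp; rfl
  rw [this]

theorem cG (h : Hy F s) (k : HB F s φ) (hc : CN F) {g : G} (c : g * F t = F t * g) : g ∈ G0 h k := by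
  have fm : ∀ x, F x ∈ G0 h k := fun x => (k.fm x).imp Or.inl Or.inl
  have sm : s ∈ G0 h k := Or.inl (Or.inr (by rw [h.s2]; exact one_mem _))
  rcases h.hD g (hc (mem_centralizer_singleton_iff.2 c)) with ⟨x, e⟩ | ⟨x, e⟩
  · exact e ▸ fm x
  · exact ((G0 h k).mul_mem_cancel_right sm).1 (e ▸ fm x)

theorem sq0 (h : Hy F s) (k : HB F s φ) {g : G} (hg : g ∈ G0 h k) : g * g ∈ φ.range := by
  have s2 := h.s2
  have t2 : F t * F t = 1 := tt
  rcases hg with (e | e) | (e | e)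
  · exact mul_mem e e
  · have := mul_mem e (ns k _ e)
    rwa [show g * s * (s * (g * s) * s) = g * (s * s) * g * (s * s) by group, s2, mul_one, mul_one] at this
  · have := mul_mem e (nt k _ e)
    rwa [show g * F t * (F t * (g * F t) * F t) = g * (F t * F t) * g * (F t * F t) by group, t2, mul_one, mul_one] at this
  · have := mul_mem e (ns k _ (nt k _ e))
    rwa [show g * F t * s * (s * (F t * (g * F t * s) * F t) * s) = g * F t * (s * s) * F t * g * F t * (s * F t) * s by group,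
      h.st, s2, mul_one, show g * F t * F t * g * F t * (F t * s) * s = g * (F t * F t) * g * (F t * F t) * (s * s) by group,
      t2, s2, mul_one, mul_one, mul_one] at this

theorem sy (h : Hy F s) : s * F (z * z') = F (z * z') * s := by
  have : s * F (z * z') * s = F (z * z') := by
    conv_lhs => rw [map_mul, h.sm, h.sz, h.sz', ← map_mul, ← d4.2.2.2.1]
  rw [← this, mul_assoc (s * _), h.s2, mul_one, this]

theorem cj {a b : G} (g : G) (e : IsConj a (g * b * g⁻¹)) : IsConj a b :=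
  e.trans (isConj_iff.2 ⟨g, rfl⟩).symm

theorem inv2 {r : G} (e : IsConj (F t) r) : r * r = 1 := by
  obtain ⟨g, rfl⟩ := isConj_iff.1 e
  rw [show g * F t * g⁻¹ * (g * F t * g⁻¹) = g * (F t * F t) * g⁻¹ by group, tt]; group

theorem notN (h : Hy F s) (hb : CB F s) (ht : CT F s) (hc : CN F) (k : HB F s φ) {r : G} (e : IsConj (F t) r) : r ∉ φ.range := by
  rintro ⟨⟨x, y⟩, rfl⟩
  have i := inv2 e
  rw [← map_mul, map_eq_one_iff _ k.inj, Prod.mk_mul_mk, Prod.mk_eq_one] at i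
  have u1 : φ (uu, 1) = F u := by
    rw [k.val]; show F u * (s * F 1 * s) = _
    rw [map_one, mul_one, h.s2, mul_one]
  have u2 : φ (1, uu) = s * F u * s⁻¹ := by rw [← k.cs, u1, h.si']
  rcases d1 x i.1 with rfl | ⟨a, rfl⟩ <;> rcases d1 y i.2 with rfl | ⟨b, rfl⟩
  · have : φ ((1 : A5), (1 : A5)) = 1 := map_one φ
    rw [this, isConj_one_left, map_eq_one_iff _ h.inj] at e
    exact d4.2.1 e
  · rw [show ((1 : A5), b * uu * b⁻¹) = (1, b) * (1, uu) * (1, b)⁻¹ by simp, map_mul, map_mul, map_inv, u2] at e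
    exact ht.2.1 (cj _ (cj _ e))
  · rw [show (a * uu * a⁻¹, (1 : A5)) = (a, 1) * (uu, 1) * (a, 1)⁻¹ by simp, map_mul, map_mul, map_inv, u1] at e
    exact ht.2.1 (cj _ e)
  · rw [show (a * uu * a⁻¹, b * uu * b⁻¹) = (a, b) * ((uu, 1) * (1, uu)) * (a, b)⁻¹ by simp, map_mul, map_mul, map_inv, map_mul,
      u1, u2, h.si'] at e
    obtain ⟨g, hg⟩ := isConj_iff.1 (cj _ e).symm
    have q : F t = g * (F u * s) * g⁻¹ * (g * (F u * s) * g⁻¹) := by rw [← hg]; group
    exact k.nt (q ▸ sq0 h k (cG h k hc (by rw [q]; group)))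

theorem notM (h : Hy F s) (hb : CB F s) (ht : CT F s) (hc : CN F) (k : HB F s φ) {r : G} (e : IsConj (F t) r) : r ∉ M1 h k := by
  rintro (m | ⟨⟨x, y⟩, m⟩)
  · exact notN h hb ht hc k e m
  · have hr : r = φ (x, y) * s := by rw [m, mul_assoc, h.s2, mul_one]
    subst hr
    have i := inv2 e
    rw [show φ (x, y) * s * (φ (x, y) * s) = φ (x, y) * (s * φ (x, y) * s) by group, k.cs, ← map_mul, map_eq_one_iff _ k.inj,
      Prod.mk_mul_mk, Prod.mk_eq_one] at i
    obtain rfl : y = x⁻¹ := eq_inv_of_mul_eq_one_right i.1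
    have q : φ (x, x⁻¹) * s = φ (x, 1) * s * (φ (x, 1))⁻¹ := by
      rw [show (x, x⁻¹) = (x, 1) * ((1 : A5), x⁻¹) by simp, map_mul, ← k.cs x⁻¹ 1, ← map_inv]
      simp only [mul_assoc, h.s2, mul_one, Prod.inv_mk, inv_one]
    rw [q] at e
    have := ht.1 s (cj _ e) (sy h)
    exact k.nst (by rw [this, tt]; exact one_mem _)

theorem fus (h : Hy F s) (hb : CB F s) (ht : CT F s) (hc : CN F) (k : HB F s φ) {g : G} (m : g * F t * g⁻¹ ∈ G0 h k) :
    g ∈ G0 h k := by
  have e : IsConj (F t) (g * F t * g⁻¹) := isConj_iff.2 ⟨g, rfl⟩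
  have i := inv2 e
  generalize hr : g * F t * g⁻¹ = r at m e i
  rcases m with m | ⟨⟨x, y⟩, m⟩ | ⟨⟨x, y⟩, m⟩
  · exact (notM h hb ht hc k e m).elim
  · have hr' : r = φ (x, y) * F t := by rw [m, mul_assoc, tt, mul_one]
    subst hr'
    rw [show φ (x, y) * F t * (φ (x, y) * F t) = φ (x, y) * (F t * φ (x, y) * F t) by group, k.ct, ← map_mul,
      map_eq_one_iff _ k.inj, Prod.mk_mul_mk, Prod.mk_eq_one] at i
    obtain ⟨a, rfl⟩ := d2 x i.1
    obtain ⟨b, rfl⟩ := d2 y i.2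
    have q : φ (a * tw a⁻¹, b * tw b⁻¹) * F t = φ (a, b) * F t * (φ (a, b))⁻¹ := by
      rw [← Prod.mk_mul_mk, map_mul, ← k.ct, ← map_inv]
      simp only [mul_assoc, tt, mul_one, Prod.inv_mk]
    rw [q] at hr
    have c : (φ (a, b))⁻¹ * g ∈ G0 h k := cG h k hc (by
      rw [show (φ (a, b))⁻¹ * g * F t = (φ (a, b))⁻¹ * (g * F t * g⁻¹) * g by group, hr]; group)
    have am : φ (a, b) ∈ G0 h k := Or.inl (Or.inl ⟨_, rfl⟩)
    exact ((G0 h k).mul_mem_cancel_left (inv_mem am)).1 c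
  · exfalso
    have hr' : r = φ (x, y) * (s * F t) := by
      rw [m, show r * F t * s * (s * F t) = r * F t * (s * s) * F t by group, h.s2, mul_one, mul_assoc, tt, mul_one]
    subst hr'
    have c2 : ∀ a b, s * F t * φ (a, b) * (s * F t) = φ (tw b, tw a) := fun a b => by
      rw [← k.cs (tw a) (tw b), ← k.ct a b]
      calc _ = s * F t * φ (a, b) * (F t * s) := by rw [← h.st]
        _ = _ := by simp only [mul_assoc]
    have st2 : s * F t * (s * F t) = 1 := h.tw.s2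
    rw [show φ (x, y) * (s * F t) * (φ (x, y) * (s * F t)) = φ (x, y) * (s * F t * φ (x, y) * (s * F t)) by group, c2,
      ← map_mul, map_eq_one_iff _ k.inj, Prod.mk_mul_mk, Prod.mk_eq_one] at i
    obtain rfl : y = tw x⁻¹ := by rw [← eq_inv_of_mul_eq_one_right i.1, d3]
    have q : φ (x, tw x⁻¹) * (s * F t) = φ (x, 1) * (s * F t) * (φ (x, 1))⁻¹ := by
      rw [show (x, tw x⁻¹) = (x, 1) * (tw 1, tw x⁻¹) by simp [d4.2.2.2.2.1], map_mul, ← c2, ← map_inv, mul_assoc, mul_assoc _ (s * F t),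
        st2]
      simp only [mul_assoc, mul_one, Prod.inv_mk, inv_one]
    rw [q] at e
    have := ht.1 _ (cj _ e) (by
      rw [mul_assoc, ← map_mul, d4.2.2.1, map_mul, ← mul_assoc, sy h, mul_assoc])
    exact k.ns (by rw [mul_eq_right.1 this]; exact one_mem _)

theorem b3 [Finite G] (h : Hy F s) (hb : CB F s) (ht : CT F s) (hc : CN F) (k : HB F s φ) :
    (¬ 128 ∣ Nat.card G) ∧ IX F := by
  haveI : Fact (Nat.Prime 2) := ⟨Nat.prime_two⟩
  have o2 : orderOf (F t) = 2 := orderOf_eq_prime (by rw [pow_two, tt]) (fun e => d4.2.1 ((map_eq_one_iff _ h.inj).1 e))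
  obtain ⟨P, hP⟩ := (IsPGroup.of_card (n := 1) (by rw [Nat.card_zpowers, o2, pow_one]) : IsPGroup 2 (zpowers (F t))).exists_le_sylow
  have tP : F t ∈ (P : Subgroup G) := hP (mem_zpowers _)
  have tG : F t ∈ G0 h k := Or.inr (by rw [tt]; exact one_mem _)
  have le : (P : Subgroup G) ≤ G0 h k := by
    haveI := P.isPGroup'.isNilpotent
    rw [← subgroupOf_eq_top]
    refine normalizerCondition_iff_only_full_group_self_normalizing.1 Group.normalizerCondition_of_isNilpotent _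
      (le_antisymm (fun g hg => ?_) le_normalizer)
    exact fus h hb ht hc k ((mem_normalizer_iff.1 hg ⟨F t, tP⟩).1 tG)
  refine ⟨fun d => ?_, ?_⟩
  · have := (P.pow_dvd_card_of_pow_dvd_card (n := 7) d).trans (card_dvd_of_le le)
    rw [card0] at this
    omega
  · rcases Cfsg.Agent.S0111.result P (M1 h k ⊓ P) inf_le_right (by rw [inf_relIndex_right]; exact rel2 (tM h k) le tP) (F t) o2 tP
      (fun e => tM h k e.1) with ⟨M, _, a, b⟩ | ⟨g, hg⟩
    · exact ⟨M, a, b⟩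
    · exact (notM h hb ht hc k (isConj_iff.2 ⟨g, rfl⟩) hg.1).elim

end H24.DmB3
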