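import Cfsg.Agent.H24.Fl3

/-!
Group-theoretic form of Flavell's bound (`flavell_grp`) and generation of `VA` by two conjugates (`two_gen`).
-/

set_option autoImplicit false

open Module Cfsg Subgroup BG
open scoped commutatorElement

universe u

namespace H24.Fl
open H24.HH

variable {G : Type u} [Group G] [Finite G] {p q : ℕ} {x : G} {A V : Subgroup G}

theorem flavell_grp (hp : p.Prime) (hp4 : 3 < p) (hq : q.Prime) (hs : Group.IsSolvable A) (hV : IsElementaryAbelian q V)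
    (hn : A ≤ N_(V)) (hmin : ∀ U ≤ V, A ≤ N_(U) → U = ⊥ ∨ U = V) (hxA : x ∈ A) (hx : x ^ p = 1)
    (hgen : ∀ K, A ≤ N_(K) → x ∈ K → A ≤ K) (h : ¬ V ≤ C_[x]) : Nat.card ↥(V ⊓ C_[x]) ^ 2 < Nat.card V := by
  haveI := Fact.mk hq
  obtain ⟨M, _, _, _, τ, κ, a1, a2, a3, a4, a5⟩ := exists_sm (q := q) (Z := ⊥) (L := A) (abelian_iff_der.1 hV.1).le
    (fun g hg => hV.2 g hg) hn le_norm_bot
  let D : Sm q V ⊥ A M := ⟨τ, κ, hn, a1, a2, a3, a4, a5⟩
  haveI : Module.Finite (ZMod q) M := Module.Finite.of_finite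
  have hinj : Function.Injective κ := fun a b e => Subtype.ext (inv_mul_eq_one.1 ((D.eq_iff a b).1 e))
  have h1 := flavell (ρ := τ) (x := ⟨x, hxA⟩) q hp hp4 hs (Subtype.ext hx) (by
      rw [← map_subtype_inj, ← MonoidHom.range_eq_map, range_subtype]
      refine le_antisymm (map_subtype_le _) (hgen _ (H02.le_normalizer_map_subtype _) ⟨_, subset_normalClosure rfl, rfl⟩))
    (fun U hU => by
      let B : Subgroup G :=
        { carrier := {g | ∃ h : g ∈ V, κ ⟨g, h⟩ ∈ U}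
          one_mem' := ⟨one_mem _, by rw [(a3 _).2 (one_mem _)]; exact zero_mem _⟩
          mul_mem' := fun ⟨h1, h2⟩ ⟨h3, h4⟩ => ⟨mul_mem h1 h3, (a2 ⟨_, h1⟩ ⟨_, h3⟩).symm ▸ add_mem h2 h4⟩
          inv_mem' := fun ⟨h1, h2⟩ =>
            ⟨inv_mem h1, (show κ ⟨_, inv_mem h1⟩ = -κ ⟨_, h1⟩ from D.inv ⟨_, h1⟩).symm ▸ neg_mem h2⟩ }
      rcases hmin B (fun g h => h.1) (le_norm_iff.2 (by
        rintro g hg k ⟨h1, h2⟩
        refine ⟨conj_mem_of_norm (hn hg) h1, ?_⟩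
        rw [a4 ⟨g, hg⟩ ⟨k, h1⟩ _ rfl]
        exact hU _ ⟨_, h2, rfl⟩)) with h | h
      · refine Or.inl (eq_bot_iff.2 fun m hm' => ?_)
        obtain ⟨n, rfl⟩ := a1 m
        exact (a3 n).2 (h.le ⟨n.2, hm'⟩)
      · refine Or.inr (eq_top_iff.2 fun m _ => ?_)
        obtain ⟨n, rfl⟩ := a1 m
        exact (h.ge n.2).2) fun e => h fun v hv => by
      have := a4 ⟨x, hxA⟩ ⟨v, hv⟩ ⟨_, conj_mem_of_norm (hn hxA) hv⟩ rfl
      rw [e] at this
      exact mem_cent1.2 (mul_inv_eq_iff_eq_mul.1 (congrArg Subtype.val (hinj this))).symm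
  have h2 : Nat.card ↥(V ⊓ C_[x]) ≤ Nat.card (LinearMap.ker (τ ⟨x, hxA⟩ - 1)) :=
    Nat.card_le_card_of_injective (fun v => ⟨κ ⟨v.1, v.2.1⟩, mem_fx.2 (a4 _ _ _ (by
      rw [← mem_cent1.1 v.2.2]; simp)).symm⟩) fun a b e =>
        Subtype.ext (Subtype.mk.inj (hinj (congrArg Subtype.val e)))
  rw [relIndex_bot_left] at a5
  rw [← a5, Module.natCard_eq_pow_finrank (K := ZMod q) (V := M), Nat.card_zmod]
  rw [Module.natCard_eq_pow_finrank (K := ZMod q) (V := LinearMap.ker _), Nat.card_zmod] at h2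
  refine (Nat.pow_le_pow_left h2 2).trans_lt ?_
  rw [← pow_mul]
  exact Nat.pow_lt_pow_right hq.one_lt (by rw [mul_comm]; exact h1)

omit [Finite G] in
theorem gen_two {a : G} (ha : a ∈ A) (h : A = zpowers x ⊔ zpowers (a * x * a⁻¹)) (K : Subgroup G) (hK : A ≤ N_(K))
    (hx : x ∈ K) : A ≤ K := h.le.trans (sup_le (zpowers_le.2 hx) (zpowers_le.2 (conj_mem_of_norm (hK ha) hx)))

theorem two_gen (hp : p.Prime) (hp4 : 3 < p) (hq : q.Prime) (hs : Group.IsSolvable A) (hV : IsElementaryAbelian q V)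
    (hn : A ≤ N_(V)) (hmin : ∀ U ≤ V, A ≤ N_(U) → U = ⊥ ∨ U = V) (hx : x ^ p = 1) {a : G} (ha : a ∈ A)
    (h : A = zpowers x ⊔ zpowers (a * x * a⁻¹)) {r : ℕ} (hr : r.Prime) (hrq : r ≠ q) {R : Subgroup G} (hR : IsPGroup r R)
    (hRA : R ≤ A) (hAR : A ≤ N_(R)) (hc : V ⊓ C_(R) = ⊥) :
    ∃ v ∈ V, V ≤ zpowers x ⊔ zpowers ((v * a) * x * (v * a)⁻¹) := by
  by_cases hV0 : V = ⊥
  · exact ⟨1, one_mem _, hV0 ▸ bot_le⟩
  have hxA : x ∈ A := h.ge (mem_sup_left (mem_zpowers x))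
  have hVq : IsPGroup q V := pg_of_pow hV.2
  have h1 := flavell_grp hp hp4 hq hs hV hn hmin hxA hx (gen_two ha h) fun e => hV0 (eq_bot_mono hc (le_inf le_rfl
    (cent_symm (hRA.trans (gen_two ha h _ (norm_cent hn) (le_cent1_iff.1 e))))))
  set y := a * x * a⁻¹ with hy
  have hyA : y ∈ A := mul_mem (mul_mem ha hxA) (inv_mem ha)
  have h2 : Nat.card ↥(V ⊓ C_[y]) = Nat.card ↥(V ⊓ C_[x]) := by
    rw [hy, ← cj_cent1, ← cj_of_mem_norm (hn ha), ← cj_inf, card_cj, cj_of_mem_norm (hn ha)]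
  have h3 : ¬ V ≤ (V ⊓ C_[x]) ⊔ (V ⊓ C_[y]) := fun e => by
    have := (card_le e).trans (Nat.le_of_dvd (Nat.mul_pos (card_pos _) (card_pos _))
      (card_sup_dvd (inf_le_left.trans (le_norm_of_abelian hV.1 inf_le_left))))
    rw [h2, ← sq] at this
    omega
  obtain ⟨v, hv, hv'⟩ := SetLike.not_le_iff_exists.1 h3
  refine ⟨v, hv, ?_⟩
  have e : v * a * x * (v * a)⁻¹ = v * y * v⁻¹ := by simp [hy, mul_assoc]
  rw [e]
  set B := zpowers x ⊔ zpowers (v * y * v⁻¹)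
  have hxB : x ∈ B := mem_sup_left (mem_zpowers x)
  have hyB : v * y * v⁻¹ ∈ B := mem_sup_right (mem_zpowers _)
  have hB : B ≤ V ⊔ A := sup_le (zpowers_le.2 (mem_sup_right hxA)) (zpowers_le.2
    (mul_mem (mul_mem (mem_sup_left hv) (mem_sup_right hyA)) (inv_mem (mem_sup_left hv))))
  have hA : A ≤ V ⊔ B := h.le.trans (sup_le (zpowers_le.2 (mem_sup_right hxB)) (zpowers_le.2 (by
    have := mul_mem (mul_mem (inv_mem (mem_sup_left (T := B) hv)) (mem_sup_right hyB)) (mem_sup_left hv)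
    simpa [mul_assoc] using this)))
  have hBV : B ≤ N_(V) := hB.trans (sup_le_norm_left hn)
  rcases hmin (V ⊓ B) inf_le_left (hA.trans (sup_le (le_norm_of_abelian hV.1 inf_le_left)
    (norm_inf hBV (le_norm _)))) with h4 | h4
  swap
  · exact h4.ge.trans inf_le_right
  exfalso
  have hRV : R ≤ N_(V) := hRA.trans hn
  have hVr : ¬ r ∣ Nat.card V := pg_not_dvd hr hq hVq hrq
  have hd : V ⊓ R = ⊥ := by rw [inf_comm]; exact pg_inf_eq_bot hr hR hVr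
  have h5 : (V ⊔ R) ⊓ (V ⊔ B) = V ⊔ ((V ⊔ R) ⊓ B) := dedekind le_sup_left (Or.inl hBV)
  rw [inf_eq_left.2 (sup_le le_sup_left (hRA.trans hA))] at h5
  have h6 := card_sup_of_disj hRV hd
  have h7 := card_sup_of_disj (K := V) (H := (V ⊔ R) ⊓ B) (inf_le_right.trans hBV)
    (eq_bot_mono h4 (inf_le_inf_left _ inf_le_right))
  rw [← h5, h6] at h7
  have h8 : IsSylowIn r R (V ⊔ R) := hall_sup_right ((isPi_compl hr).2 hVr) ((isPi_singleton hr).2 hR) hRV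
  obtain ⟨g, hg, h9⟩ := sylow_trans hr h8 (h8.of_card_eq (K := (V ⊔ R) ⊓ B) inf_le_left
    (Nat.eq_of_mul_eq_mul_left (card_pos V) h7).symm)
  obtain ⟨w, hw, s, hs', rfl⟩ := (mem_sup_norm hRV).1 hg
  rw [cj_mul_of_mem_norm (le_norm _ hs')] at h9
  have h10 : B ≤ cj w N_(R) := by
    rw [cj_norm, ← h9]
    exact norm_inf (hB.trans (sup_le (norm_of_le le_sup_left) (norm_sup hn hAR))) (le_norm _)
  have key : ∀ u ∈ V, ∀ z ∈ A, u * z * u⁻¹ ∈ N_(R) → u ∈ C_[z] := fun u hu z hz h => by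
    have h1 : u * z * u⁻¹ * z⁻¹ ∈ V ⊓ N_(R) := mem_inf.2 ⟨by
      simpa only [mul_assoc] using mul_mem hu (conj_mem_of_norm (hn hz) (inv_mem hu)), mul_mem h (inv_mem (hAR hz))⟩
    have h2 : V ⊓ N_(R) ≤ C_(R) := le_cent_of_disj inf_le_right (norm_inf hRV (norm_norm (le_norm _)))
      (eq_bot_mono hd (inf_le_inf_right _ inf_le_left))
    exact mem_cent1.2 (commutatorElement_eq_one_iff_mul_comm.1 (hc.le ⟨h1.1, h2 h1⟩))
  have h11 := key _ (inv_mem hw) x hxA (by simpa using mem_cj.1 (h10 hxB))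
  have h12 := key _ (mul_mem (inv_mem hw) hv) y hyA (by simpa [mul_assoc] using mem_cj.1 (h10 hyB))
  refine hv' ?_
  have := mul_mem (mem_sup_left (T := V ⊓ C_[y]) (mem_inf.2 ⟨hw, inv_mem_iff.1 h11⟩))
    (mem_sup_right (mem_inf.2 ⟨mul_mem (inv_mem hw) hv, h12⟩))
  simpa using this

theorem two_gen' (hp : p.Prime) (hp4 : 3 < p) (hq : q.Prime) (hs : Group.IsSolvable A) (hV : IsPGroup q V)
    (hn : A ≤ N_(V)) (hx : x ^ p = 1) {a : G} (ha : a ∈ A)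
    (h : A = zpowers x ⊔ zpowers (a * x * a⁻¹)) {r : ℕ} (hr : r.Prime) (hrq : r ≠ q) {R : Subgroup G} (hR : IsPGroup r R)
    (hRA : R ≤ A) (hAR : A ≤ N_(R)) (hc : ¬ R ≤ C_(V)) (hmin : ∀ U < V, A ≤ N_(U) → R ≤ C_(U)) :
    ∃ v ∈ V, V ≤ zpowers x ⊔ zpowers ((v * a) * x * (v * a)⁻¹) := by
  haveI := Fact.mk hq
  have hRV := hRA.trans hn
  have hco : (Nat.card R).Coprime (Nat.card V) := pg_coprime_ne hr hq hR hV hrq
  have h1 : ⁅V, R⁆ = V := (comm_le_left hRV).eq_or_lt.resolve_right fun e =>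
    hc (coprime_cent_of_comm hRV hco (Or.inl (pg_sol hr hR)) (cent_symm (hmin _ e (norm_comm hn hAR))))
  set F := frattiniOf V
  have hAF : A ≤ N_(F) := norm_phi hn
  have hVF : V ≤ N_(F) := norm_phi (le_norm _)
  have hRF := hRA.trans hAF
  have he : IsElementaryAbelian q (quo F V) := elem_quo_frattiniOf hV
  have h2 : quo F V ⊓ C_(quo F R) = ⊥ := by
    have := (coprime_abelian_dprod (quo_le_norm F hRV) (coprime_quo F hco) he.1).sdprod.disj
    rwa [← quo_comm hVF hRF, h1, inf_eq_left.2 inf_le_left] at this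
  have hxA : x ∈ A := h.ge (mem_sup_left (mem_zpowers x))
  obtain ⟨w, hw, h3⟩ := two_gen (x := qmk F ⟨x, hAF hxA⟩) (a := qmk F ⟨a, hAF ha⟩) hp hp4 hq (sol_quo F hs) he
    (quo_le_norm F hn) (fun U h1 h3 => by
      rcases (coquo_le_of_le_quo (phi_le V) h1).eq_or_lt with h4 | h4
      · exact Or.inr (by rw [← h4, quo_coquo])
      · refine Or.inl (eq_bot_mono h2 (le_inf h1 ?_))
        rw [← quo_coquo U]
        exact quo_le_cent F (cent_symm (hmin _ h4 (le_norm_coquo hAF h3))))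
    (by rw [← qmk_pow, qmk_eq_one]; change x ^ p ∈ F; rw [hx]; exact one_mem _) (qmk_mem_quo ha _)
    (by rw [← qmk_conj, ← quo_zpowers, ← quo_zpowers, ← quo_sup (zpowers_le.2 (hAF hxA))
      (zpowers_le.2 (hAF (mul_mem (mul_mem ha hxA) (inv_mem ha)))), ← h])
    hr hrq (pgroup_quo F hR) (quo_mono F hRA) (quo_le_norm F hAR) h2
  obtain ⟨v, hv, hv', rfl⟩ := mem_quo.1 hw
  refine ⟨v, hv, ?_⟩
  have h4 : zpowers x ⊔ zpowers (v * a * x * (v * a)⁻¹) ≤ N_(F) := sup_le (zpowers_le.2 (hAF hxA))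
    (zpowers_le.2 (mul_mem (mul_mem (mul_mem hv' (hAF ha)) (hAF hxA)) (inv_mem (mul_mem hv' (hAF ha)))))
  rw [← qmk_mul, ← qmk_conj, ← quo_zpowers, ← quo_zpowers, ← quo_sup (le_sup_left.trans h4) (le_sup_right.trans h4),
    quo_le_quo_iff hVF h4] at h3
  have h5 := dedekind (phi_le V) (Or.inl h4)
  rw [inf_eq_left.2 h3, sup_comm] at h5
  exact (eq_of_le_sup_phi inf_le_left h5.le).ge.trans inf_le_right

theorem nil_sup_of_pcores {F V : Subgroup G} (hF : Group.IsNilpotent F) (hV : Group.IsNilpotent V) (hn : F ≤ N_(V))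
    (h : ∀ r q : ℕ, r.Prime → q.Prime → r ≠ q → piCoreOf {r} F ≤ C_(piCoreOf {q} V)) :
    Group.IsNilpotent ↥(F ⊔ V) := by
  refine nil_of_sylow_normal fun r hr _ => ?_
  have a1 : piCoreOf {r}ᶜ F ≤ C_(piCoreOf {r} V) := nil_le_of_pcores (nil_of_le hF (pcore_le _ _)) fun s hs hd =>
    (nil_pcore_mono _ hF (pcore_le _ _)).trans (h s r hs hr fun e => pcore_not_dvd hr F (e ▸ hd))
  have a2 : piCoreOf {r}ᶜ V ≤ C_(piCoreOf {r} F) := nil_le_of_pcores (nil_of_le hV (pcore_le _ _)) fun s hs hd =>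
    (nil_pcore_mono _ hV (pcore_le _ _)).trans (cent_symm (h r s hr hs fun e => pcore_not_dvd hr V (e ▸ hd)))
  set S := piCoreOf {r} V ⊔ piCoreOf {r} F
  set T := piCoreOf {r}ᶜ V ⊔ piCoreOf {r}ᶜ F
  have a3 : T ≤ C_(S) := sup_le (le_cent_sup (pcore_cent_compl' _ _) a2) (le_cent_sup a1 (pcore_cent_compl' _ _))
  have a4 : S ⊔ T = F ⊔ V := by
    rw [sup_sup_sup_comm, (nil_dprod {r} hF).sdprod.sup, (nil_dprod {r} hV).sdprod.sup, sup_comm]
  rw [← a4]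
  exact ⟨S, hall_sup_left ((pcore_isPi _ _).sup (pcore_isPi _ _) ((pcore_le _ _).trans (norm_pcore _ hn)))
    ((pcore_isPi _ _).sup (pcore_isPi _ _) ((pcore_le _ _).trans (norm_pcore _ hn))) (le_norm_of_cent a3),
    sup_le_norm_left (le_norm_of_cent a3)⟩

end H24.Fl
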