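import Cfsg.Agent.BG.Api
import Cfsg.Agent.BG.Quo3
import Cfsg.Agent.H03.Focal

/-!
Fixed points of `x` (odd prime order) in `[H, x]`, basics (namespace `H24.GF`): `X x h = [h, ⟨x⟩]`,
`D x H = ⟨C_{[h,x]}(x) : h ∈ H⟩`, generation lemmas, passage to quotients, `Stmt`.
-/

set_option autoImplicit false

open Cfsg Subgroup BG
open scoped commutatorElement

universe u

namespace H24.GF

variable {G : Type u} [Group G] {p : ℕ} {x h : G} {H K N Y : Subgroup G}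

/-- `[h, ⟨x⟩]` -/
def X (x h : G) : Subgroup G := closure {c | ∃ i : ℕ, c = h⁻¹ * (x ^ i * h * (x ^ i)⁻¹)}

/-- the subgroup generated by the fixed points of `x` in the `[h, ⟨x⟩]` -/
def D (x : G) (H : Subgroup G) : Subgroup G := ⨆ h ∈ H, X x h ⊓ C_[x]

theorem mem_X (x h : G) (i : ℕ) : h⁻¹ * (x ^ i * h * (x ^ i)⁻¹) ∈ X x h := subset_closure ⟨i, rfl⟩

theorem d_mem (x h : G) : h⁻¹ * (x * h * x⁻¹) ∈ X x h := by simpa using mem_X x h 1

theorem X_le_iff : X x h ≤ K ↔ ∀ i : ℕ, h⁻¹ * (x ^ i * h * (x ^ i)⁻¹) ∈ K :=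
  ⟨fun e i => e (mem_X x h i), fun e => (closure_le _).2 (by rintro _ ⟨i, rfl⟩; exact e i)⟩

theorem X_le (hx : x ∈ N_(K)) (hd : h⁻¹ * (x * h * x⁻¹) ∈ K) : X x h ≤ K := X_le_iff.2 fun i => by
  induction i with
  | zero => simp
  | succ i ih =>
    have := mul_mem hd (conj_mem_of_norm hx ih)
    convert this using 1
    rw [pow_succ']; group

theorem X_le_H (hx : x ∈ N_(H)) (hh : h ∈ H) : X x h ≤ H :=
  X_le hx (mul_mem (inv_mem hh) (conj_mem_of_norm hx hh))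

theorem norm_X [Finite G] (x h : G) : x ∈ N_(X x h) := mem_norm_of_cj_le (cj_le_iff.2 (X_le_iff.2 fun i => mem_cj_inv.2 (by
  have := mul_mem (inv_mem (d_mem x h)) (mem_X x h (i + 1))
  convert this using 1
  rw [pow_succ']; group)))

theorem fix_le_D (hh : h ∈ H) : X x h ⊓ C_[x] ≤ D x H := le_iSup₂_of_le (f := fun h (_ : h ∈ H) => X x h ⊓ C_[x]) h hh le_rfl

theorem D_mono (h : Y ≤ H) : D x Y ≤ D x H := iSup₂_le fun _ hy => fix_le_D (h hy)

theorem D_le (hx : x ∈ N_(H)) : D x H ≤ H ⊓ C_[x] := iSup₂_le fun _ hy => inf_le_inf_right _ (X_le_H hx hy)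

theorem norm_D [Finite G] : H ⊓ C_[x] ≤ N_(D x H) := fun c hc => mem_norm_of_cj_le (cj_le_iff.2 (iSup₂_le fun h hh => by
  refine le_trans ?_ (cj_mono _ (fix_le_D (mul_mem (mul_mem hc.1 hh) (inv_mem hc.1))))
  rw [cj_inf, cj_of_mem (inv_mem hc.2)]
  refine inf_le_inf_right _ (X_le_iff.2 fun i => mem_cj_inv.2 ?_)
  have e : x ^ i = c * x ^ i * c⁻¹ := by rw [mem_cent1.1 (cent1_le_cent1_pow x i hc.2)]; simp
  have := mem_X x (c * h * c⁻¹) i
  rw [e] at this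
  convert this using 1
  group))

theorem comm_le [Finite G] (e : ∀ h ∈ H, X x h ≤ K) : ⁅H, zpowers x⁆ ≤ K := commutator_le.2 fun h hh a ha => by
  obtain ⟨i, rfl⟩ := (mem_powers_iff_mem_zpowers.2 ha)
  simpa [commutatorElement_def, mul_assoc] using e _ (inv_mem hh) (mem_X x h⁻¹ i)

theorem comm_le' [Finite G] (hx : x ∈ N_(H)) (e : ∀ h ∈ H, h⁻¹ * (x * h * x⁻¹) ∈ K) : ⁅H, zpowers x⁆ ≤ K :=
  comm_le fun h hh => X_le_iff.2 fun i => by
    induction i with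
    | zero => simp
    | succ i ih =>
      have := mul_mem ih (e _ (conj_mem_of_norm (pow_mem hx i) hh))
      convert this using 1
      rw [pow_succ']; group

theorem d_mem_comm (hh : h ∈ H) : h⁻¹ * (x * h * x⁻¹) ∈ ⁅H, zpowers x⁆ := by
  simpa [commutatorElement_def, mul_assoc] using commutator_mem_commutator (inv_mem hh) (mem_zpowers x)

theorem cop (hp : p.Prime) (hx : x ^ p = 1) (hH : ¬ p ∣ Nat.card H) : (Nat.card (zpowers x)).Coprime (Nat.card H) := by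
  rw [card_zpowers]
  exact Nat.Coprime.coprime_dvd_left (orderOf_dvd_of_pow_eq_one hx) ((Nat.Prime.coprime_iff_not_dvd hp).2 hH)

theorem solP (x : G) (K : Subgroup G) : Group.IsSolvable (zpowers x) ∨ Group.IsSolvable K :=
  Or.inl (sol_of_abelian (abelian_of_cyclic (cyclic_zpowers x)))

variable [Finite G]

/-- `h` may be chosen inside `[h, x]` -/
theorem exists_in (hp : p.Prime) (hx : x ^ p = 1) (hn : x ∈ N_(H)) (hH : ¬ p ∣ Nat.card H) (hh : h ∈ H) :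
    ∃ g ∈ X x h, g⁻¹ * x * g = h⁻¹ * x * h := by
  have hXH := X_le_H hn hh
  have hP : zpowers x ≤ N_(X x h) := zpowers_le.2 (norm_X x h)
  have hPp : IsPGroup p (zpowers x) := (elemAb_zpowers hx).pg
  have h1 : IsSylowIn p (zpowers x) (X x h ⊔ zpowers x) :=
    hall_sup_right ((isPi_compl hp).2 (not_dvd_of_le hH hXH)) ((isPi_singleton hp).2 hPp) hP
  have h2 : cj h⁻¹ (zpowers x) ≤ X x h ⊔ zpowers x := by
    rw [cj_zpowers, zpowers_le]
    simpa [mul_assoc] using mul_mem (mem_sup_left (T := zpowers x) (d_mem x h)) (mem_sup_right (mem_zpowers x))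
  obtain ⟨g, hg, e⟩ := sylow_trans hp h1 (h1.of_card_eq h2 (card_cj _ _))
  obtain ⟨k, hk, a, ha, rfl⟩ := (mem_sup_norm hP).1 hg
  rw [cj_mul_of_mem_norm (le_norm _ ha), cj_eq_cj_iff] at e
  refine ⟨k⁻¹, inv_mem hk, ?_⟩
  have hm := mul_mem (inv_mem (hXH hk)) (inv_mem hh)
  have := eq_one_of_mem_of_disj (pg_inf_eq_bot hp hPp hH)
    (mul_mem (conj_mem_of_norm e (mem_zpowers x)) (inv_mem (mem_zpowers x)))
    (by simpa only [mul_assoc] using mul_mem hm (conj_mem_of_norm hn (inv_mem hm)))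
  rw [mul_inv_eq_one] at this
  calc _ = k * (k⁻¹ * h⁻¹ * x * (k⁻¹ * h⁻¹)⁻¹) * k⁻¹ := by rw [this, inv_inv]
    _ = _ := by group

theorem X_comm (hp : p.Prime) (hx : x ^ p = 1) (hn : x ∈ N_(H)) (hH : ¬ p ∣ Nat.card H) (hh : h ∈ H) :
    X x h ≤ ⁅X x h, zpowers x⁆ := by
  obtain ⟨g, hg, e⟩ := exists_in hp hx hn hH hh
  refine X_le (right_le_norm_comm _ _ (mem_zpowers x)) ?_
  have := d_mem_comm (x := x) hg
  simp only [← mul_assoc] at this ⊢
  rwa [← e]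

theorem ab_fix (hp : p.Prime) (hx : x ^ p = 1) (hn : x ∈ N_(H)) (hH : ¬ p ∣ Nat.card H) :
    ⁅H, zpowers x⁆ ⊓ C_[x] ≤ ⁅H, H⁆ := by
  have hP : zpowers x ≤ N_(H) := zpowers_le.2 hn
  have h1 := (coprime_abelian_dprod (quo_le_norm ⁅H, H⁆ hP) (coprime_quo _ (cop hp hx hH))
    ((abelian_quo_iff (le_norm_der H)).2 le_rfl)).sdprod.disj
  rw [← quo_comm (le_norm_der H) (norm_der hP)] at h1
  refine (quo_eq_bot_iff (inf_le_left.trans ((comm_le_left hP).trans (le_norm_der H)))).1 (eq_bot_mono h1 (le_inf (le_inf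
    (quo_mono _ (inf_le_left.trans (comm_le_left hP))) ?_) (quo_mono _ inf_le_left)))
  rw [← cent_zpowers]
  exact (quo_mono _ inf_le_right).trans (quo_cent_le _ _)

theorem sylow_der {q : ℕ} {Q : Subgroup G} (h : IsSylowIn q Q H) : Q ⊓ ⁅H, H⁆ ⊓ C_(H) ≤ ⁅Q, Q⁆ := fun v hv => by
  have h1 := H03.hall_inf_commutator_inf_center_le (Q.subgroupOf H) (by
    rw [Nat.card_congr (subgroupOfEquivOfLe h.le).toEquiv]; exact h.coprime) (x := ⟨v, h.le hv.1.1⟩) ⟨⟨hv.1.1, by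
      rw [commutator_def, ← subgroupOf_self, ← subgroupOf_comm le_rfl le_rfl]; exact hv.1.2⟩,
      mem_center_iff.2 fun g => Subtype.ext (mem_cent.1 hv.2 g g.2)⟩
  rw [← subgroupOf_comm h.le h.le] at h1
  exact h1

/-- the statement for groups of order less than `n` -/
def Stmt (p n : ℕ) : Prop := ∀ (G : Type u) [Group G] [Finite G] (x : G) (H : Subgroup G), Nat.card H < n → x ^ p = 1 →
  x ∈ N_(H) → Group.IsSolvable H → ¬ p ∣ Nat.card H → ⁅H, zpowers x⁆ ⊓ C_[x] ≤ D x H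

theorem quot (hp : p.Prime) (hx : x ^ p = 1) (hn : x ∈ N_(H)) (hs : Group.IsSolvable H) (hH : ¬ p ∣ Nat.card H)
    (hI : Stmt.{u} p (Nat.card H)) (hc : ⁅H, zpowers x⁆ = H) (hN : N ≠ ⊥) (hNH : N ≤ H) (hHN : H ≤ N_(N))
    (hxN : x ∈ N_(N)) : H ⊓ C_[x] ≤ D x H ⊔ (N ⊓ C_[x]) := by
  have hP : zpowers x ≤ N_(N) := zpowers_le.2 hxN
  have h1 := hI _ (qmk N ⟨x, hxN⟩) (quo N H) (card_quo_lt' hHN hNH hN) (by
    rw [← qmk_pow, qmk_eq_one]; simp [hx]) (qmk_mem_norm hxN hn) (sol_quo N hs) (not_dvd_card_quo N hH)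
  rw [← quo_zpowers, ← quo_comm hHN hP, hc] at h1
  have h2 : D (qmk N ⟨x, hxN⟩) (quo N H) ≤ quo N (D x H) := iSup₂_le fun k hk => by
    obtain ⟨h, hh, hh', rfl⟩ := mem_quo.1 hk
    have hXH := X_le_H hn hh
    refine le_trans ?_ (quo_mono N (fix_le_D hh))
    rw [← cent_zpowers, ← cent_zpowers, quo_cent_coprime' hP (hXH.trans hHN) (zpowers_le.2 (norm_X x h))
      (cop hp hx (not_dvd_of_le hH (inf_le_left.trans hNH))) (solP _ _), quo_zpowers hxN]
    refine inf_le_inf_right _ (X_le (qmk_mem_norm hxN (norm_X x h)) ?_)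
    have := qmk_mem_quo (N := N) (d_mem x h) (hHN (hXH (d_mem x h)))
    rwa [qmk_mul (inv_mem hh') (mul_mem (mul_mem hxN hh') (inv_mem hxN)), qmk_inv, qmk_conj] at this
  have h3 : H ⊓ C_[x] ≤ N ⊔ D x H := (quo_le_quo_iff (inf_le_left.trans hHN) ((D_le hn).trans (inf_le_left.trans hHN))).1
    (le_trans (le_inf (quo_mono _ inf_le_left) ((quo_mono _ inf_le_right).trans (quo_cent1_le hxN))) (h1.trans h2))
  have h4 := dedekind (H := N) (D_le hn) (Or.inr ((D_le hn).trans (inf_le_left.trans hHN)))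
  rw [sup_comm, inf_eq_left.2 h3] at h4
  exact h4.le.trans (sup_le_sup_left (le_inf inf_le_right (inf_le_left.trans inf_le_right)) _)

end H24.GF
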