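import Cfsg.Agent.H24.GF1
import Cfsg.Agent.H24.Wielandt

/-!
Fixed points of `x` in `[H, x]`: the minimal counterexample `Min` and the case of a non-central minimal invariant
subgroup (`caseA`), namespace `H24.GF`.
-/

set_option autoImplicit false

open Cfsg Subgroup BG
open scoped commutatorElement

universe u

namespace H24.GF

variable {G : Type u} [Group G] {p q r : ℕ} {x g h : G} {H K N Y V A : Subgroup G}

/-- the stabilizer of the section `V / K` -/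
def St (V K : Subgroup G) : Subgroup G where
  carrier := {y | y ∈ N_(V) ∧ ∀ v ∈ V, y * v * y⁻¹ * v⁻¹ ∈ K}
  one_mem' := ⟨one_mem _, fun v _ => by simp⟩
  mul_mem' := fun {y z} hy hz => ⟨mul_mem hy.1 hz.1, fun v hv => by
    have := mul_mem (hy.2 _ (conj_mem_of_norm hz.1 hv)) (hz.2 v hv)
    convert this using 1; group⟩
  inv_mem' := fun {y} hy => ⟨inv_mem hy.1, fun v hv => by
    have := inv_mem (hy.2 _ (conj_mem_of_norm' hy.1 hv))
    convert this using 1; group⟩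

theorem le_St (h1 : A ≤ N_(V)) (h2 : ⁅A, V⁆ ≤ K) : A ≤ St V K :=
  fun _ ha => ⟨h1 ha, fun _ hv => h2 (commutator_mem_commutator ha hv)⟩

theorem comm_St (h : A ≤ St V K) : ⁅A, V⁆ ≤ K := commutator_le.2 fun _ ha _ hv => (h ha).2 _ hv

theorem norm_St (h1 : A ≤ N_(V)) (h2 : A ≤ N_(K)) : A ≤ N_(St V K) := le_norm_iff.2 fun a ha y hy =>
  ⟨mul_mem (mul_mem (h1 ha) hy.1) (inv_mem (h1 ha)), fun v hv => by
    have := conj_mem_of_norm (h2 ha) (hy.2 _ (conj_mem_of_norm' (h1 ha) hv))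
    convert this using 1; group⟩

/-- a minimal counterexample -/
structure Min (p : ℕ) (x : G) (H : Subgroup G) : Prop where
  hp : p.Prime
  h2 : p ≠ 2
  hx : x ^ p = 1
  hn : x ∈ N_(H)
  hs : Group.IsSolvable H
  hH : ¬ p ∣ Nat.card H
  hc : ⁅H, zpowers x⁆ = H
  b : ∀ Y < H, x ∈ N_(Y) → ⁅Y, zpowers x⁆ ⊓ C_[x] ≤ D x H
  c : ∀ N : Subgroup G, N ≠ ⊥ → N ≤ H → H ≤ N_(N) → x ∈ N_(N) → H ⊓ C_[x] ≤ D x H ⊔ (N ⊓ C_[x])
  ne : ¬ H ⊓ C_[x] ≤ D x H

theorem Min.e (m : Min p x H) (h0 : N ≠ ⊥) (h1 : N ≤ H) (h2 : H ≤ N_(N)) (h3 : x ∈ N_(N)) : ¬ N ⊓ C_[x] ≤ D x H :=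
  fun e => m.ne ((m.c N h0 h1 h2 h3).trans (sup_le le_rfl e))

theorem Min.cop (m : Min p x H) (h : Y ≤ H) : (Nat.card (zpowers x)).Coprime (Nat.card Y) :=
  GF.cop m.hp m.hx (not_dvd_of_le m.hH h)

variable [Finite G]

theorem fin (hp : p.Prime) (h2 : p ≠ 2) (hx : x ^ p = 1) (hH : ¬ p ∣ Nat.card H) (hq : q.Prime) (hr : r.Prime)
    (hrq : r ≠ q) (hV : IsElementaryAbelian q V) (hY : IsPGroup r Y) (hHV : H ≤ N_(V)) (hxV : x ∈ N_(V))
    (hxY : x ∈ N_(Y)) (hn : x ∈ N_(H)) (hs : V ⊔ Y = H) (hf : Y ⊓ C_[x] = ⊥) (hc : V ⊓ C_(Y) = ⊥) (hW : V ⊓ C_[x] ≠ ⊥)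
    (hY0 : Y ≠ ⊥) (hg : g ∈ Y) (hgY : Y ≤ X x g) (key : ∀ h ∈ H, V ⊔ X x h = H → V ⊓ X x h = ⊥) : False := by
  have hVH : V ≤ H := hs ▸ le_sup_left
  have hYH : Y ≤ H := hs ▸ le_sup_right
  have hx1 : x ≠ 1 := fun e => hY0 (eq_bot_mono hf (le_inf le_rfl fun y _ => mem_cent1.2 (by simp [e])))
  have hP : Nat.card (zpowers x) = p := by
    rw [card_zpowers]; haveI := Fact.mk hp; exact orderOf_eq_prime hx hx1
  have hV0 : V ≠ ⊥ := ne_bot_mono hW inf_le_left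
  have hpq : q ≠ p := fun e => hH ((e ▸ pg_dvd hq hV.pg hV0).trans (card_dvd hVH))
  have h0 := wielandt_elementary hq (K := Y) (R := zpowers x) (zpowers_le.2 hxY) (fun a ha h1 => by
    rw [← hf, ← cent_zpowers x]
    exact congrArg _ (cent1_eq_of_prime (hP ▸ hp) ha h1)) hV (not_dvd_sup hq (pg_not_dvd hq hr hY hrq.symm)
      (by rw [hP]; exact fun e => hpq ((Nat.prime_dvd_prime_iff_eq hq hp).1 e)) (zpowers_le.2 hxY))
      (sup_le (hYH.trans hHV) (zpowers_le.2 hxV))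
  rw [eq_bot_mono hc (inf_le_inf_left _ (cent_anti le_sup_left)), hc, cent_zpowers, hP, card_bot, one_pow, one_mul,
    mul_one] at h0
  have h1 : Nat.card ↥(V ⊓ C_[x]) ^ 2 < Nat.card V :=
    h0 ▸ Nat.pow_lt_pow_right (one_lt_card hW) (lt_of_le_of_ne hp.two_le h2.symm)
  set y := g⁻¹ * x * g with hy
  have hyY : y ∈ N_(Y) := mul_mem (mul_mem (inv_mem (le_norm _ hg)) hxY) (le_norm _ hg)
  have hyV : y ∈ N_(V) := mul_mem (mul_mem (inv_mem (hHV (hYH hg))) hxV) (hHV (hYH hg))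
  have h2 : Nat.card ↥(V ⊓ C_[y]) = Nat.card ↥(V ⊓ C_[x]) := by
    have hg' := inv_mem (hHV (hYH hg))
    rw [hy, ← inv_inv g, inv_inv g⁻¹, ← cj_cent1, ← cj_of_mem_norm hg', ← cj_inf, card_cj, cj_of_mem_norm hg']
  have h3 : ¬ V ≤ (V ⊓ C_[x]) ⊔ (V ⊓ C_[y]) := fun e => by
    have := (card_le e).trans (Nat.le_of_dvd (Nat.mul_pos (card_pos _) (card_pos _))
      (card_sup_dvd (inf_le_left.trans (le_norm_of_abelian hV.1 inf_le_left))))
    rw [h2, ← sq] at this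
    omega
  obtain ⟨v, hv, hv'⟩ := SetLike.not_le_iff_exists.1 h3
  have hk : g * v⁻¹ ∈ H := mul_mem (hYH hg) (inv_mem (hVH hv))
  have hd := d_mem x (g * v⁻¹)
  set B := X x (g * v⁻¹)
  have hBH : B ≤ H := X_le_H hn hk
  have h4 : V ⊔ B = H := le_antisymm (sup_le hVH hBH) (hs.ge.trans (sup_le le_sup_left (hgY.trans (X_le
    (norm_sup (zpowers_le.2 hxV) (zpowers_le.2 (norm_X _ _)) (mem_zpowers x)) (by
      have := mul_mem (mem_sup_left (T := B) (mul_mem (conj_mem_of_norm hyV hv) (inv_mem hv))) (mem_sup_right hd)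
      convert this using 1
      rw [hy]; group)))))
  have hVr : ¬ r ∣ Nat.card V := pg_not_dvd hr hq hV.pg hrq
  have hd' : V ⊓ Y = ⊥ := by rw [inf_comm]; exact pg_inf_eq_bot hr hY hVr
  have h6 := card_sup_of_disj (hYH.trans hHV) hd'
  have h7 := card_sup_of_disj (hBH.trans hHV) (key _ hk h4)
  rw [h4, ← hs, h6] at h7
  have h8 : IsSylowIn r Y (V ⊔ Y) := hall_sup_right ((isPi_compl hr).2 hVr) ((isPi_singleton hr).2 hY) (hYH.trans hHV)
  obtain ⟨t, ht, h9⟩ := sylow_trans hr h8 (h8.of_card_eq (K := B) (hs ▸ hBH)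
    (Nat.eq_of_mul_eq_mul_left (card_pos V) h7).symm)
  obtain ⟨w, hw, s, hs', rfl⟩ := (mem_sup_norm (hYH.trans hHV)).1 ht
  rw [cj_mul_of_mem_norm (le_norm _ hs')] at h9
  have h10 : N_(B) = cj w N_(Y) := by rw [cj_norm, ← h9]
  have key : ∀ u ∈ V, ∀ z ∈ N_(V), z ∈ N_(Y) → u * z * u⁻¹ ∈ N_(Y) → u ∈ C_[z] := fun u hu z hz hz' h => by
    have h1 : u * z * u⁻¹ * z⁻¹ ∈ V ⊓ N_(Y) := mem_inf.2 ⟨by
      simpa only [mul_assoc] using mul_mem hu (conj_mem_of_norm hz (inv_mem hu)), mul_mem h (inv_mem hz')⟩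
    have h2 : V ⊓ N_(Y) ≤ C_(Y) := le_cent_of_disj inf_le_right (norm_inf (hYH.trans hHV) (norm_norm (le_norm _)))
      (eq_bot_mono hd' (inf_le_inf_right _ inf_le_left))
    exact mem_cent1.2 (commutatorElement_eq_one_iff_mul_comm.1 (hc.le ⟨h1.1, h2 h1⟩))
  have h11 := key _ (inv_mem hw) x hxV hxY (by simpa using mem_cj.1 (h10.le (norm_X _ _)))
  have h12 := key _ (mul_mem (inv_mem hw) hv) y hyV hyY (by
    have := mem_cj.1 (h10.le (mul_mem (le_norm _ hd) (norm_X _ _)))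
    convert this using 1
    rw [hy]; group)
  refine hv' ?_
  have := mul_mem (mem_sup_left (T := V ⊓ C_[y]) (mem_inf.2 ⟨hw, inv_mem_iff.1 h11⟩))
    (mem_sup_right (mem_inf.2 ⟨mul_mem (inv_mem hw) hv, h12⟩))
  simpa using this

theorem caseA (m : Min p x H) (hq : q.Prime) (hVH : V ≤ H) (hV0 : V ≠ ⊥) (hV : IsElementaryAbelian q V)
    (hHV : H ≤ N_(V)) (hxV : x ∈ N_(V)) (hmin : ∀ U ≤ V, H ≤ N_(U) → zpowers x ≤ N_(U) → U = ⊥ ∨ U = V)
    (hc : ⁅V, H⁆ = V) : False := by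
  have hPV : zpowers x ≤ N_(V) := zpowers_le.2 hxV
  have hD := D_le m.hn
  have hdp := coprime_abelian_dprod hPV (m.cop hVH) hV.1
  rw [cent_zpowers] at hdp
  have hW := m.e hV0 hVH hHV hxV
  set K := ⁅V, zpowers x⁆ ⊔ (V ⊓ D x H) with hK
  have nK : ¬ V ≤ K := fun e => hW fun v hv => by
    obtain ⟨a, ha, b, hb, rfl⟩ := (mem_sup_norm (inf_le_left.trans (left_le_norm_comm _ _))).1 (e hv.1)
    have : a = 1 := eq_one_of_mem_of_disj hdp.sdprod.disj
      (mem_inf.2 ⟨comm_le_left hPV ha, by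
        simpa using mul_mem (mem_inf.1 hv).2 (inv_mem (mem_inf.1 (hD hb.2)).2)⟩) ha
    simpa [this] using hb.2
  have hPD : zpowers x ≤ N_(D x H) := le_norm_of_cent (cent_symm (by rw [cent_zpowers]; exact hD.trans inf_le_right))
  have hPS : zpowers x ≤ N_(St V K) := norm_St hPV (norm_sup (right_le_norm_comm _ _) (norm_inf hPV hPD))
  have hCV : H ⊓ C_[x] ≤ N_(V) := inf_le_left.trans hHV
  have hCS : H ⊓ C_[x] ≤ N_(St V K) := norm_St hCV (norm_sup (norm_comm hCV (le_norm_of_cent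
    (by rw [cent_zpowers]; exact inf_le_right))) (norm_inf hCV norm_D))
  have sS : ∀ Y ≤ H, x ∈ N_(Y) → V ⊔ Y ≠ H → ⁅Y, zpowers x⁆ ≤ St V K := fun Y hY hxY hne => by
    have hYN := (comm_le_left (zpowers_le.2 hxY)).trans (hY.trans hHV)
    have h1 := m.b _ (lt_of_le_of_ne (sup_le hVH hY) hne) (norm_sup hPV (zpowers_le.2 hxY) (mem_zpowers x))
    have h2 := dedekind (U := ⁅V, zpowers x⁆) (V := V ⊓ ⁅V ⊔ Y, zpowers x⁆) (H := V ⊓ C_[x])
      (le_inf (comm_le_left hPV) (comm_mono le_sup_left le_rfl)) (Or.inl (inf_le_left.trans (left_le_norm_comm _ _)))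
    rw [sup_comm ⁅V, zpowers x⁆ (V ⊓ C_[x]), hdp.sdprod.sup, inf_eq_left.2 inf_le_left] at h2
    refine le_St hYN ((le_inf (comm_le_right hYN) ((comm_mono (comm_mono le_sup_right le_rfl) le_rfl).trans
      (comm_le_left (le_sup_left.trans (left_le_norm_comm _ _))))).trans (h2.le.trans (sup_le_sup_left ?_ _)))
    exact fun v hv => ⟨hv.1.1, h1 ⟨hv.1.2, hv.2.2⟩⟩
  have nS : ¬ H ≤ St V K := fun e => nK (hc.ge.trans ((comm_comm _ _).le.trans (comm_St e)))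
  obtain ⟨h, hh, hX⟩ : ∃ h ∈ H, V ⊔ X x h = H := by
    by_contra! e
    exact nS (m.hc.ge.trans (comm_le fun h hh => (X_comm m.hp m.hx m.hn m.hH hh).trans
      (sS _ (X_le_H m.hn hh) (norm_X _ _) (e h hh))))
  have key : ∀ h ∈ H, V ⊔ X x h = H → V ⊓ X x h = ⊥ := fun h hh e =>
    (hmin _ inf_le_left (e.ge.trans (sup_le (le_norm_of_abelian hV.1 inf_le_left) (le_norm_inf'
      ((X_le_H m.hn hh).trans hHV)))) (norm_inf hPV (zpowers_le.2 (norm_X _ _)))).resolve_right fun e' => m.ne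
        (le_trans (inf_le_inf_right _ (e.ge.trans (sup_le (e'.ge.trans inf_le_right) le_rfl))) (fix_le_D hh))
  have hxY := norm_X x h
  have hYH := X_le_H m.hn hh
  have hYD := fix_le_D (x := x) hh
  have hYc := X_comm m.hp m.hx m.hn m.hH hh
  obtain ⟨g, hg, hg'⟩ := exists_in m.hp m.hx m.hn m.hH hh
  have hgY : X x h ≤ X x g := X_le (norm_X _ _) (by
    have := d_mem x g
    simp only [← mul_assoc] at this ⊢
    rwa [← hg'])
  have hd := key h hh hX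
  generalize X x h = Y at *
  have hPY : zpowers x ≤ N_(Y) := zpowers_le.2 hxY
  have hfa : Y ⊓ C_(V) = ⊥ := by
    by_contra e
    exact m.e e (inf_le_left.trans hYH) (hX.ge.trans (sup_le (le_norm_of_cent (cent_symm inf_le_right))
      (le_norm_inf_cent (hYH.trans hHV)))) (norm_inf hPY (norm_cent hPV) (mem_zpowers x))
      ((inf_le_inf_right _ inf_le_left).trans hYD)
  have hreg : ∀ A ≤ Y, A ≠ ⊥ → Y ≤ N_(A) → zpowers x ≤ N_(A) → V ⊓ C_(A) = ⊥ := fun A h1 h2 h3 h4 =>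
    (hmin _ inf_le_left (hX.ge.trans (sup_le (le_norm_of_abelian hV.1 inf_le_left) (norm_inf (hYH.trans hHV)
      (norm_cent h3)))) (norm_inf hPV (norm_cent h4))).resolve_right fun e =>
        h2 (eq_bot_mono hfa (le_inf h1 (cent_symm (e.ge.trans inf_le_right))))
  have nT : ¬ Y ≤ St V K ⊔ (H ⊓ C_[x]) := fun e => nS (hX.ge.trans (sup_le (le_St (le_norm _)
    ((abelian_iff_der.1 hV.1).le.trans bot_le)) (hYc.trans ((comm_mono e le_rfl).trans (comm_sup_le (le_norm _) hCS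
      (comm_le_left hPS) ((comm_eq_bot.2 (by rw [cent_zpowers]; exact inf_le_right)).le.trans bot_le))))))
  have pS : ∀ U < Y, zpowers x ≤ N_(U) → ⁅U, zpowers x⁆ ≤ St V K := fun U hU hn =>
    sS U (hU.le.trans hYH) (hn (mem_zpowers x)) fun e => hU.ne (by
      have := dedekind (H := V) hU.le (Or.inr (hU.le.trans (hYH.trans hHV)))
      rwa [sup_comm, e, inf_eq_left.2 hYH, inf_comm, hd, sup_bot_eq, eq_comm] at this)
  obtain ⟨r, hr, hY⟩ : ∃ r : ℕ, r.Prime ∧ IsPGroup r Y := by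
    by_contra! e
    refine nT (le_of_sylows fun r hr _ => ?_)
    obtain ⟨R, hR, hn⟩ := coprime_sylow_exists hr (solP x Y) hPY (m.cop hYH)
    refine ⟨R, hR, (coprime_comm_sup_cent hn (m.cop (hR.le.trans hYH)) (solP _ _)).ge.trans (sup_le_sup
      (pS R (lt_of_le_of_ne hR.le fun e' => e r hr (e' ▸ hR.pg hr)) hn) ?_)⟩
    rw [cent_zpowers]; exact inf_le_inf_right _ (hR.le.trans hYH)
  have hY0 : Y ≠ ⊥ := fun e => nT (e.le.trans bot_le)
  have hVY := hreg Y le_rfl hY0 (le_norm _) hPY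
  have hrq : r ≠ q := fun e => pg_fix_ne_bot hq (e ▸ hY) hV.pg (hYH.trans hHV) hV0 hVY
  have hcop : ∀ A ≤ Y, ∀ U ≤ V, (Nat.card A).Coprime (Nat.card U) := fun A hA U hU =>
    pg_coprime_ne hr hq (pg_le hY hA) (pg_le hV.pg hU) hrq
  have hPA : zpowers x ≤ N_(Y ⊓ C_(Y)) := norm_inf hPY (norm_cent hPY)
  have hA0 : Y ⊓ C_(Y) ⊓ C_[x] = ⊥ := by
    by_contra e
    have h1 := hreg _ (inf_le_left.trans inf_le_left) e (le_norm_of_cent (cent_symm (inf_le_left.trans inf_le_right)))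
      (norm_inf hPA (norm_cent1 (zpowers_le_cent1 x)))
    have h2 := coprime_comm_eq_of_cent_bot (A := Y ⊓ C_(Y) ⊓ C_[x]) (K := V ⊓ C_[x]) (norm_inf
      (inf_le_left.trans (inf_le_left.trans (hYH.trans hHV))) (norm_cent1 inf_le_right))
      (hcop _ (inf_le_left.trans inf_le_left) _ inf_le_left) (Or.inr (sol_of_le m.hs (inf_le_left.trans hVH)))
      (eq_bot_mono h1 (inf_le_inf_right _ inf_le_left))
    exact hW (h2.ge.trans ((comm_mono (inf_le_inf_right _ hVH) ((inf_le_inf_right _ inf_le_left).trans hYD)).trans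
      (comm_le_right norm_D)))
  have hab : Y ⊓ C_(Y) = Y := by
    by_contra e
    have h1 := pS _ (lt_of_le_of_ne inf_le_left e) hPA
    rw [coprime_comm_eq_of_cent_bot hPA (m.cop (inf_le_left.trans hYH)) (solP _ _) (by rwa [cent_zpowers])] at h1
    exact nK ((coprime_comm_eq_of_cent_bot (inf_le_left.trans (hYH.trans hHV)) (hcop _ inf_le_left _ le_rfl)
      (Or.inr (sol_of_le m.hs hVH)) (hreg _ inf_le_left (pg_center_ne_bot hr hY hY0) (le_norm_inf_cent (le_norm _))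
        hPA)).ge.trans ((comm_comm _ _).le.trans (comm_St h1)))
  rw [hab] at hA0
  exact fin m.hp m.h2 m.hx m.hH hq hr hrq hV hY hHV hxV hxY m.hn hX hA0 hVY (fun e => hW (e.le.trans bot_le)) hY0 hg hgY key

end H24.GF
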