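import Cfsg.Agent.H24.GF2

/-!
`H24.GF.main`: for `x` of odd prime order acting coprimely on a solvable group `H`,
`C_{[H,x]}(x) = ⟨C_{[h,x]}(x) : h ∈ H⟩` (ambient form).
-/

set_option autoImplicit false

open Cfsg Subgroup BG
open scoped commutatorElement

universe u

namespace H24.GF

variable {G : Type u} [Group G] {p q r : ℕ} {x g h : G} {H K N Y V A : Subgroup G}

theorem pol {a b c d z : G} (hz : ∀ y ∈ H, ∀ w ∈ H, ⁅y, w⁆ ∈ C_(H)) (ha : a ∈ H) (hb : b ∈ H) (hc : c ∈ H) (hd : d ∈ H)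
    (h0 : z ∈ C_(H)) (h1 : a * c = c * a) (h2 : b * d = d * b) (h3 : a * z * b * (c * z * d) = c * z * d * (a * z * b)) :
    ⁅a, d⁆ = ⁅c, b⁆ := by
  have mv : ∀ z ∈ C_(H), ∀ y ∈ H, ∀ t, y * (z * t) = z * (y * t) := fun z hz y hy t => by
    rw [← mul_assoc, mem_cent.1 hz y hy, mul_assoc]
  simp only [mul_assoc, mv z h0 a ha, mv z h0 b hb, mv z h0 c hc, mv z h0 d hd, mul_right_inj] at h3
  have h4 : ⁅b, c⁆ * (⁅a, d⁆ * (c * (d * (a * b)))) = c * (d * (a * b)) := by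
    rw [← mv _ (hz a ha d hd) c hc, ← h3]
    calc _ = ⁅b, c⁆ * (c * a * (d * b)) := by simp only [commutatorElement_def]; group
      _ = a * (⁅b, c⁆ * (c * (b * d))) := by rw [← h1, ← h2, mv _ (hz b hb c hc) a ha, mul_assoc]
      _ = _ := by simp only [commutatorElement_def]; group
  rw [← mul_assoc, mul_eq_right] at h4
  rw [eq_inv_of_mul_eq_one_right h4, commutatorElement_inv]

variable [Finite G]

theorem Min.nx (m : Min p x H) : ¬ H ≤ C_[x] := fun e => m.ne (inf_le_left.trans (m.hc.ge.trans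
  ((comm_eq_bot.2 (by rwa [cent_zpowers])).le.trans bot_le)))

theorem Min.Zx (m : Min p x H) : H ⊓ C_(H) ≤ C_[x] := by
  have hP : zpowers x ≤ N_(H ⊓ C_(H)) := norm_inf (zpowers_le.2 m.hn) (norm_cent (zpowers_le.2 m.hn))
  rw [← cent_zpowers, ← comm_eq_bot]
  by_contra e
  have := (coprime_abelian_dprod hP (m.cop inf_le_left) (abelian_center H)).sdprod.disj
  rw [cent_zpowers] at this
  exact m.e e ((comm_le_left hP).trans inf_le_left) (le_norm_of_cent (cent_symm ((comm_le_left hP).trans inf_le_right)))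
    (right_le_norm_comm _ _ (mem_zpowers x)) ((eq_bot_mono this (le_inf (inf_le_inf_right _ (comm_le_left hP))
      inf_le_left)).le.trans bot_le)

theorem Min.ZD (m : Min p x H) : H ⊓ C_(H) ⊓ D x H = ⊥ := by
  by_contra e
  exact m.e e (inf_le_left.trans inf_le_left) (le_norm_of_cent (cent_symm (inf_le_left.trans inf_le_right)))
    (cent_le_norm _ (le_cent1_iff.1 (inf_le_left.trans m.Zx))) (inf_le_left.trans inf_le_right)

theorem class2 (m : Min p x H) (h2 : ⁅H, H⁆ ≤ C_(H)) : False := by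
  have hz : ∀ y ∈ H, ∀ w ∈ H, ⁅y, w⁆ ∈ C_(H) := fun y hy w hw => h2 (commutator_mem_commutator hy hw)
  have hzx : ∀ y ∈ H, ∀ w ∈ H, x * ⁅y, w⁆ * x⁻¹ = ⁅y, w⁆ := fun y hy w hw => by
    rw [← mem_cent1.1 (m.Zx ⟨der_le H (commutator_mem_commutator hy hw), hz y hy w hw⟩)]; simp
  have hab : ∀ h ∈ H, ∀ d, d = h⁻¹ * (x * h * x⁻¹) → d * (x * d * x⁻¹) = x * d * x⁻¹ * d := fun h hh d e => by
    have h1 := der_le (X x h)
    have h3 := (der_mono (X_le_H m.hn hh))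
    exact mul_comm_of_abelian (abelian_iff_der.2 (eq_bot_mono m.ZD (le_inf (le_inf (h3.trans (der_le H)) (h3.trans h2))
      ((le_inf h1 ((le_inf (h3.trans (der_le H)) (h3.trans h2)).trans m.Zx)).trans (fix_le_D hh))))) (e ▸ d_mem x h)
      (conj_mem_of_norm (norm_X x h) (e ▸ d_mem x h))
  have hdH : ∀ h ∈ H, h⁻¹ * (x * h * x⁻¹) ∈ H := fun h hh => X_le_H m.hn hh (d_mem x h)
  refine m.nx (m.hc.ge.trans (comm_le' m.hn fun g hg => ?_))
  have ha := hdH g hg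
  have h3 := hab g hg _ rfl
  set a := g⁻¹ * (x * g * x⁻¹) with ea
  have ha' := conj_mem_of_norm m.hn ha
  have hcH := mul_mem (inv_mem ha) (conj_mem_of_norm m.hn ha')
  have h4 : H ≤ C_[a⁻¹ * (x * (x * a * x⁻¹) * x⁻¹)] := m.hc.ge.trans (comm_le' m.hn fun k hk => by
    have hh := conj_mem_of_norm' m.hn hk
    set h := x⁻¹ * k * x with eh
    have hb := hdH h hh
    have h5 := hab h hh _ rfl
    set b := h⁻¹ * (x * h * x⁻¹) with eb
    have e1 : a * ⁅a⁻¹, h⁻¹⁆ * b = (g * h)⁻¹ * (x * (g * h) * x⁻¹) := by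
      simp only [commutatorElement_def, ea, eb]; group
    have h6 := hab _ (mul_mem hg hh) _ e1
    have e2 : x * (a * ⁅a⁻¹, h⁻¹⁆ * b) * x⁻¹ = x * a * x⁻¹ * ⁅a⁻¹, h⁻¹⁆ * (x * b * x⁻¹) := by
      conv_rhs => rw [← hzx _ (inv_mem ha) _ (inv_mem hh)]
      generalize ⁅a⁻¹, h⁻¹⁆ = z
      group
    rw [e2] at h6
    have h7 := pol hz ha hb ha' (conj_mem_of_norm m.hn hb) (hz _ (inv_mem ha) _ (inv_mem hh)) h3 h5 h6
    rw [← hzx _ ha' _ hb] at h7
    have e3 : k⁻¹ * (x * k * x⁻¹) = x * b * x⁻¹ := by simp only [eb, eh]; group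
    rw [e3, mem_cent1]
    simp only [commutatorElement_def] at h7
    calc _ = a⁻¹ * (a * (x * b * x⁻¹) * a⁻¹ * (x * b * x⁻¹)⁻¹) * (x * b * x⁻¹) * (x * (x * a * x⁻¹) * x⁻¹) := by group
      _ = _ := by rw [h7]; group)
  set c := a⁻¹ * (x * (x * a * x⁻¹) * x⁻¹) with ec
  have h5 : c * x = x * c := mem_cent1.1 (m.Zx ⟨hcH, le_cent1_iff.1 h4⟩)
  have h6 : ∀ k : ℕ, (x ^ 2) ^ k * a * ((x ^ 2) ^ k)⁻¹ = a * c ^ k := fun k => by
    induction k with
    | zero => simp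
    | succ k ih =>
      have h7 : (x ^ 2) ^ k * c = c * (x ^ 2) ^ k := ((Commute.pow_right (Commute.pow_right h5 2) k).eq).symm
      calc _ = (x ^ 2) ^ k * a * ((x ^ 2) ^ k)⁻¹ * ((x ^ 2) ^ k * c * ((x ^ 2) ^ k)⁻¹) := by
            rw [pow_succ (x ^ 2), ec]; generalize (x ^ 2) ^ k = t; rw [sq]; group
        _ = _ := by rw [ih, h7, pow_succ c]; simp [mul_assoc]
  have h7 := h6 p
  rw [← pow_mul, mul_comm 2, pow_mul, m.hx] at h7
  have h8 : c = 1 := orderOf_eq_one_iff.1 (Nat.eq_one_of_dvd_coprimes ((Nat.Prime.coprime_iff_not_dvd m.hp).2 m.hH)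
    (orderOf_dvd_of_pow_eq_one (by simpa using h7.symm)) (orderOf_dvd_card hcH))
  obtain ⟨k, hk⟩ := m.hp.odd_of_ne_two m.h2
  have h9 := h6 (k + 1)
  rw [← pow_mul, mul_add, add_comm, ← one_add_one_eq_two, mul_one, add_assoc, add_comm 1 (_ * k), one_add_one_eq_two, ← hk,
    pow_add, m.hx, h8] at h9
  exact mem_cent1.2 (Eq.symm (by simpa [mul_inv_eq_iff_eq_mul] using h9))

theorem caseQ (m : Min p x H) (hq : q.Prime) (hQ : IsPGroup q H) : False := by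
  have hP : zpowers x ≤ N_(H) := zpowers_le.2 m.hn
  set Z := H ⊓ C_(H) with hZ
  have hHZ : H ≤ N_(Z) := le_norm_inf_cent (le_norm _)
  have hPZ : zpowers x ≤ N_(Z) := norm_inf hP (norm_cent hP)
  have hZP : Z ≤ C_(zpowers x) := by rw [cent_zpowers]; exact m.Zx
  set M := H ⊓ St H Z
  have hPM : zpowers x ≤ N_(M) := norm_inf hP (norm_St hP hPZ)
  have hMH : ⁅M, H⁆ ≤ Z := comm_St inf_le_right
  have h1 : ¬ M ≤ C_(H) := fun e => by
    obtain ⟨_, ⟨hy, hy'⟩, h1⟩ := exists_mem_ne_one (pg_center_ne_bot hq (pgroup_quo Z hQ)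
      (quo_ne_bot hHZ fun e => m.nx (e.trans m.Zx)))
    obtain ⟨y, hyH, hn, rfl⟩ := mem_quo.1 hy
    exact h1 (qmk_eq_one.2 ⟨hyH, e ⟨hyH, le_norm _ hyH, (qmk_mem_cent_iff hn hHZ).1 hy'⟩⟩)
  have h2 : M ⊓ C_(zpowers x) ≤ C_(H) := cent_symm (m.hc.ge.trans (comm_eq_bot.1 (three_subgroup
    (by rw [comm_eq_bot.2 (cent_symm inf_le_right)]; exact commutator_bot_left _)
    (eq_bot_mono (comm_eq_bot.2 hZP) (comm_mono ((comm_mono inf_le_left le_rfl).trans hMH) le_rfl)))))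
  obtain ⟨h, hh, hX⟩ : ∃ h ∈ H, M ⊔ X x h = H := by
    by_contra! e
    refine h1 ((coprime_comm_sup_cent hPM (m.cop inf_le_left) (solP _ _)).ge.trans (sup_le (cent_symm
      (m.hc.ge.trans (comm_le fun h hh => cent_symm (comm_eq_bot.1 ?_)))) h2))
    have h3 := (comm_mono (comm_le_left hPM) (X_le_H m.hn hh)).trans hMH
    exact eq_bot_mono m.ZD (le_inf h3 ((le_inf (comm_le_of_le (comm_mono le_sup_left le_rfl)
      ((X_comm m.hp m.hx m.hn m.hH hh).trans (comm_mono le_sup_right le_rfl))) (h3.trans m.Zx)).trans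
      (m.b _ (lt_of_le_of_ne (sup_le inf_le_left (X_le_H m.hn hh)) (e h hh))
        (norm_sup hPM (zpowers_le.2 (norm_X x h)) (mem_zpowers x)))))
  have hYH := X_le_H m.hn hh
  have h3 : ⁅M, X x h⁆ ≤ Z := (comm_mono le_rfl hYH).trans hMH
  have h4 : ⁅⁅M, X x h⁆, X x h⁆ = ⊥ := comm_eq_bot.2 (h3.trans (inf_le_right.trans (cent_anti hYH)))
  have h5 : ⁅X x h, X x h⁆ = ⊥ := by
    by_contra e
    refine nil_meet_center (pg_nil hq hQ) ((der_le _).trans hYH) (hX.ge.trans (sup_le (le_norm_of_cent (cent_symm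
      (comm_eq_bot.1 (three_subgroup (by rw [comm_comm (X x h) M]; exact h4) h4)))) (le_norm_der _))) e (eq_bot_mono m.ZD ?_)
    have h6 : ⁅X x h, X x h⁆ ⊓ C_(H) ≤ Z := inf_le_inf_right _ ((der_le _).trans hYH)
    exact le_inf h6 ((le_inf (inf_le_left.trans (der_le _)) (h6.trans m.Zx)).trans (fix_le_D hh))
  refine class2 m (le_trans ?_ (inf_le_right : Z ≤ _))
  have := der_sup_le (inf_le_left.trans hHZ) (hYH.trans hHZ) ((comm_mono le_rfl inf_le_left).trans hMH) h3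
    (h5.le.trans bot_le)
  rwa [hX] at this

theorem caseB (m : Min p x H) (hq : q.Prime) (hVH : V ≤ H) (hV0 : V ≠ ⊥) (hV : IsPGroup q V) (hc : V ≤ C_(H)) : False := by
  have hP : zpowers x ≤ N_(H) := zpowers_le.2 m.hn
  have hVZ : V ≤ H ⊓ C_(H) := le_inf hVH hc
  have hVx := hVZ.trans m.Zx
  have hD := D_le m.hn
  have h1 := m.c V hV0 hVH (le_norm_of_cent (cent_symm hc)) (cent_le_norm _ (le_cent1_iff.1 hVx))
  have h2 : ⁅H ⊓ C_[x], H ⊓ C_[x]⁆ ≤ D x H := (der_mono h1).trans (der_sup_le (le_norm _)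
    ((inf_le_inf_right _ hVH).trans norm_D) (der_le _) (comm_le_left ((inf_le_inf_right _ hVH).trans norm_D))
    ((comm_eq_bot.2 (le_cent_mono hc inf_le_left (inf_le_left.trans hVH))).le.trans bot_le))
  obtain ⟨Q, hQ, hn, hVQ⟩ := coprime_sylow_superset hq (solP x H) hP (m.cop le_rfl) hV hVH
    (le_norm_of_cent (cent_symm (by rwa [cent_zpowers])))
  rcases hQ.le.eq_or_lt with e | e
  · exact caseQ m hq (e ▸ hQ.pg hq)
  have h3 := ab_fix m.hp m.hx m.hn m.hH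
  rw [m.hc] at h3
  have h4 : V ≤ ⁅Q, Q⁆ := (le_inf (le_inf hVQ ((le_inf hVH hVx).trans h3)) hc).trans (sylow_der hQ)
  have h5 := coprime_comm_sup_cent hn (m.cop hQ.le) (solP _ _)
  rw [cent_zpowers] at h5
  have h6 : Q ⊓ C_[x] ≤ N_(⁅Q, zpowers x⁆) := inf_le_left.trans (left_le_norm_comm _ _)
  have h7 : ⁅Q, Q⁆ ≤ ⁅Q, zpowers x⁆ ⊔ ⁅Q ⊓ C_[x], Q ⊓ C_[x]⁆ := by
    have := der_sup_le (L := ⁅Q, zpowers x⁆ ⊔ ⁅Q ⊓ C_[x], Q ⊓ C_[x]⁆) (norm_of_le le_sup_left)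
      (norm_sup h6 (le_norm_der _)) ((der_le _).trans le_sup_left) ((comm_le_left h6).trans le_sup_left) le_sup_right
    rwa [h5] at this
  refine hV0 (eq_bot_mono m.ZD (le_inf hVZ fun v hv => ?_))
  obtain ⟨a, ha, b, hb, rfl⟩ := (mem_sup_norm ((der_le _).trans h6)).1 (h7 (h4 hv))
  exact mul_mem (m.b Q e (hn (mem_zpowers x)) (mem_inf.2 ⟨ha, by
    simpa using mul_mem (hVx hv) (inv_mem (mem_inf.1 (der_le _ hb)).2)⟩)) (h2 (der_mono (inf_le_inf_right _ hQ.le) hb))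

theorem Min.false (m : Min p x H) : False := by
  have hP : zpowers x ≤ N_(H) := zpowers_le.2 m.hn
  obtain ⟨V, h1, h2, h3, h4⟩ := exists_minnormal (K := H) (A := H ⊔ zpowers x) (fun e => m.nx (e.le.trans bot_le))
    (sup_le_norm_left hP)
  obtain ⟨q, hq, hV⟩ := minnormal_elem h2 h3 (sol_of_le m.hs h1) h4
  have hHV := le_sup_left.trans h3
  have hPV := le_sup_right.trans h3
  rcases h4 _ (comm_le_left hHV) (norm_comm h3 (sup_le_norm_left hP)) with e | e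
  · exact caseB m hq h1 h2 hV.pg (comm_eq_bot.1 e)
  · exact caseA m hq h1 h2 hV hHV (hPV (mem_zpowers x)) (fun U a b c => h4 U a (sup_le b c)) e

theorem stmt (hp : p.Prime) (h2 : p ≠ 2) (n : ℕ) : Stmt.{u} p n := by
  induction n with
  | zero => exact fun _ _ _ _ _ h => absurd h (Nat.not_lt_zero _)
  | succ n ih =>
    intro G _ _ x H hc hx hn hs hH
    have hI : Stmt.{u} p (Nat.card H) := fun G' _ _ y K h => ih G' y K (by omega)
    have hP : zpowers x ≤ N_(H) := zpowers_le.2 hn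
    have hb : ∀ Y < H, x ∈ N_(Y) → ⁅Y, zpowers x⁆ ⊓ C_[x] ≤ D x H := fun Y hY h =>
      (hI G x Y (card_lt hY) hx h (sol_of_le hs hY.le) (not_dvd_of_le hH hY.le)).trans (D_mono hY.le)
    rcases (comm_le_left hP).eq_or_lt with e | e
    · rw [e]
      by_contra ne
      exact Min.false ⟨hp, h2, hx, hn, hs, hH, e, hb, fun N a b c d => quot hp hx hn hs hH hI e a b c d, ne⟩
    · rw [← coprime_comm_comm hP (cop hp hx hH) (solP _ _)]
      exact hb _ e (right_le_norm_comm _ _ (mem_zpowers x))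

theorem main (hp : p.Prime) (h2 : p ≠ 2) (hx : x ^ p = 1) (hn : x ∈ N_(H)) (hs : Group.IsSolvable H)
    (hH : ¬ p ∣ Nat.card H) : ⁅H, zpowers x⁆ ⊓ C_[x] ≤ D x H :=
  stmt hp h2 _ G x H (Nat.lt_succ_self _) hx hn hs hH

end H24.GF
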