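import Cfsg.Agent.H21.Casolo
import Cfsg.Agent.H22.SigF1
import Cfsg.Agent.H24.Wielandt

/-!
# Conjugates of a Sylow subgroup over a `p`-subgroup, along a normal series (namespace `H24.Gh`)

* `T A H = #{x | H ≤ x A x⁻¹}`, `C M M' H` (preimage of `C_{M'/M}(H)`), `inf_eq`, `sup_eq`, `step`
  (`T (M P) H * |M'| = T (M' P) H * |C M M' H|` for a `p'`-section `M'/M`).
* `dvd_fix` : for a `p`-group `P` acting on a `p'`-group `N`,
  `∏ x, |C_N(x)| ^ p ∣ |N| ^ |P| * |C_N(P)| ^ ((p - 1) |P|)`.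
-/

set_option autoImplicit false
open Cfsg BG Subgroup Finset

namespace H24
namespace Gh

universe u
variable {G : Type*} [Group G] [Finite G] {p : ℕ} {M M' H P : Subgroup G}

noncomputable def T (A H : Subgroup G) : ℕ := Nat.card {x : G // H ≤ cj x A}

def C (M M' H : Subgroup G) [M.Normal] : Subgroup G :=
  (M'.map (QuotientGroup.mk' M) ⊓ C_(H.map (QuotientGroup.mk' M))).comap (QuotientGroup.mk' M)

omit [Finite G] in
theorem mem_C [M.Normal] (h : M ≤ M') {u : G} : u ∈ C M M' H ↔ u ∈ M' ∧ ∀ h ∈ H, u⁻¹ * h⁻¹ * u * h ∈ M := by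
  rw [C, comap_inf, comap_map_eq_self (by rwa [QuotientGroup.ker_mk']), Subgroup.mem_inf, mem_comap, mem_centralizer_iff]
  refine and_congr_right fun _ => ⟨fun h1 x hx => ?_, ?_⟩
  · simpa [mul_assoc] using QuotientGroup.eq.1 (h1 _ (mem_map_of_mem _ hx))
  · rintro h1 _ ⟨x, hx, rfl⟩
    exact QuotientGroup.eq.2 (by simpa [mul_assoc] using h1 x hx)

omit [Finite G] in
theorem mem_C' [hM : M.Normal] (h : M ≤ M') {u : G} : u ∈ C M M' H ↔ u ∈ M' ∧ ∀ h ∈ H, h * u * h⁻¹ * u⁻¹ ∈ M := by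
  rw [← inv_mem_iff, mem_C h, inv_mem_iff]
  refine and_congr_right fun _ => forall₂_congr fun x _ => ?_
  rw [← hM.mem_comm_iff]; simp [mul_assoc]

omit [Finite G] in
theorem card_C [M.Normal] : Nat.card (C M M' H) =
    Nat.card ↥(M'.map (QuotientGroup.mk' M) ⊓ C_(H.map (QuotientGroup.mk' M))) * Nat.card M := by
  rw [← card_map_mul_card_inf_ker (QuotientGroup.mk' M), C, map_comap_eq_self_of_surjective (QuotientGroup.mk'_surjective M),
    inf_eq_right.2 (ker_le_comap _ _), QuotientGroup.ker_mk']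

theorem inf_eq [M.Normal] (hp : p.Prime) (hP : IsPGroup p P) (h : M ≤ M') (hc : (M.relIndex M').Coprime p) :
    M' ⊓ (M ⊔ P) = M := by
  rw [dedekind h (Or.inl (H01.le_normalizer_of_normal _ _)), sup_eq_left]
  obtain ⟨n, hn⟩ := pg_card hp (pg_le hP (inf_le_right : M' ⊓ P ≤ P))
  exact relIndex_eq_one.1 (Nat.eq_one_of_dvd_coprimes (hc.pow_right n)
    (relIndex_dvd_of_norm inf_le_left (H01.le_normalizer_of_normal _ _)) (hn ▸ BG.relIndex_dvd_card _ _))

theorem sup_eq [M.Normal] [M'.Normal] (hp : p.Prime) (hP : IsSylowIn p P ⊤) (h : M ≤ M') {n : ℕ}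
    (hc : M.relIndex M' = p ^ n) : M ⊔ P = M' ⊔ P := by
  refine le_antisymm (sup_le_sup_right h _) (sup_le (relIndex_eq_one.1 (Nat.eq_one_of_dvd_coprimes
    ((hp.coprime_iff_not_dvd.2 (hP.not_dvd' hp)).pow_left n) (hc ▸ relIndex_dvd_left _ le_sup_left) ?_)) le_sup_right)
  exact (relIndex_dvd_of_norm' le_top le_top (H01.le_normalizer_of_normal _ _)).trans (relIndex_dvd_left _ le_sup_right)

theorem step [M.Normal] [hM' : M'.Normal] (hp : p.Prime) (hP : IsSylowIn p P ⊤) (h : M ≤ M')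
    (hc : (M.relIndex M').Coprime p) (hH : IsPGroup p H) :
    T (M ⊔ P) H * Nat.card M' = T (M' ⊔ P) H * Nat.card (C M M' H) := by
  classical
  have := Fintype.ofFinite G
  have hcj : ∀ (N : Subgroup G) [N.Normal] (x : G), cj x (N ⊔ P) = N ⊔ cj x P := fun N _ x => by
    rw [cj_sup, cj_of_mem_norm (H01.le_normalizer_of_normal ⊤ _ (mem_top x))]
  have hc' : ∀ N : Subgroup G, Nat.card N = #{x | x ∈ N} := fun N => by
    rw [Nat.card_eq_fintype_card, Fintype.card_subtype]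
  have hT : ∀ A : Subgroup G, T A H = #{x | H ≤ cj x A} := fun A => by
    rw [T, Nat.card_eq_fintype_card, Fintype.card_subtype]
  have h1 : ∀ x : G, #{u ∈ ({u | u ∈ M'} : Finset G) | H ≤ cj (u * x) (M ⊔ P)} =
      if H ≤ cj x (M' ⊔ P) then Nat.card (C M M' H) else 0 := fun x => by
    split_ifs with hx
    · obtain ⟨b, hb, h2⟩ := sylow_subJ hp ((hP.cj_of_mem (mem_top x)).sub (hcj M' x ▸ le_sup_right) le_top) hH hx
      obtain ⟨u, hu, s, hs, rfl⟩ := (mem_sup_norm (H01.le_normalizer_of_normal _ _)).1 (hcj M' x ▸ hb)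
      rw [← cj_cj, cj_of_mem hs, cj_cj] at h2
      have h3 := inf_eq hp (IsSylowIn.pg (hP.cj_of_mem (mem_top (u * x))) hp) h hc
      rw [← hcj] at h3
      replace h2 := h2.trans (cj_mono (u * x) (le_sup_right : P ≤ M ⊔ P))
      rw [hc', eq_comm]
      refine card_equiv (Equiv.mulRight u) fun v => ?_
      simp only [mem_filter, mem_univ, true_and, Equiv.coe_mulRight, mem_C h, mul_mem_cancel_right hu, mul_assoc v,
        ← cj_cj v]
      refine and_congr_right fun hv => ⟨fun h4 y hy => ?_, fun h4 y hy => h3.le ⟨?_, ?_⟩⟩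
      · simpa [mem_cj (g := v), mul_assoc] using inv_mem (mul_mem (Subgroup.mem_inf.1 (h3.ge (h4 y hy))).2 (inv_mem (h2 hy)))
      · simpa [mul_assoc] using mul_mem (inv_mem hv) (hM'.conj_mem' v hv y)
      · exact mul_mem (mem_cj.1 (h4 (inv_mem hy))) (h2 hy)
    · refine card_eq_zero.2 (filter_eq_empty_iff.2 fun u hu' hu => hx ?_)
      rw [← cj_of_mem (show u ∈ cj x (M' ⊔ P) from hcj M' x ▸ mem_sup_left (mem_filter.1 hu').2), cj_cj]
      exact hu.trans (cj_mono _ (sup_le_sup_right h _))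
  have h2 : ∀ u : G, #{x : G | H ≤ cj (u * x) (M ⊔ P)} = T (M ⊔ P) H := fun u => by
    rw [hT]
    exact card_equiv (Equiv.mulLeft (u : G)) fun x => by simp
  have h3 := sum_card_bipartiteAbove_eq_sum_card_bipartiteBelow (s := (univ : Finset G)) (t := ({u | u ∈ M'} : Finset G))
    (r := fun x u => H ≤ cj (u * x) (M ⊔ P))
  simp only [bipartiteAbove, bipartiteBelow, h1, h2, sum_const, smul_eq_mul, ← sum_filter] at h3
  rw [hT (M' ⊔ P), h3, mul_comm, hc']

theorem sum_hom {A : Type*} [Group A] [Fintype A] (φ : A →* G) {χ : G → ℂ} (h : CharOn φ.range χ) :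
    ∑ a, χ (φ a) = Nat.card A * (fdim φ.range χ : ℂ) := by
  classical
  have := Fintype.ofFinite G
  have h1 : ∀ f : G → ℂ, ∑ a, f (φ a) = #{a | φ.rangeRestrict a = 1} * ∑ y : φ.range, f y := fun f => by
    rw [mul_sum]
    refine (sum_fiberwise' univ φ.rangeRestrict fun y => f y).symm.trans (sum_congr rfl fun y _ => ?_)
    rw [sum_const, nsmul_eq_mul, MonoidHom.card_fiber_eq_of_mem_range φ.rangeRestrict (φ.rangeRestrict_surjective y)
      (φ.rangeRestrict_surjective 1)]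
  have h2 := h1 fun _ => 1
  simp only [sum_const, card_univ, nsmul_eq_mul, mul_one, ← Nat.card_eq_fintype_card] at h2
  rw [h1, ← ssum_eq, h.ssum_eq, h2, mul_assoc]

theorem sum_pow {x : G} {χ : G → ℂ} (h : CharOn (zpowers x) χ) {m : ℕ} (hm : x ^ m = 1) :
    ∑ i ∈ range m, χ (x ^ i) = m * (fdim (zpowers x) χ : ℂ) := by
  have := Fintype.ofFinite (zpowers x)
  obtain ⟨k, rfl⟩ := orderOf_dvd_of_pow_eq_one hm
  clear hm
  induction k with
  | zero => simp
  | succ k ih =>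
    rw [mul_add_one, sum_range_add, ih, Nat.cast_add, add_mul, ← Nat.card_zpowers, ← h.ssum_eq, ssum_eq, Nat.card_zpowers,
      sum_range, ← (finEquivZPowers (isOfFinOrder_of_finite x)).sum_comp]
    simp [pow_add, pow_mul, finEquivZPowers_apply]

theorem sum_fdim_le {A : Type*} [Group A] [Fintype A] (hp : p.Prime) (hA : IsPGroup p A) (φ : A →* G) {χ : G → ℂ}
    (h : CharOn φ.range χ) : (∑ a, fdim (zpowers (φ a)) χ) * p ≤
      fdim ⊥ χ * Nat.card A + fdim φ.range χ * ((p - 1) * Nat.card A) := by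
  have := Fact.mk hp
  obtain ⟨n, hn⟩ := IsPGroup.iff_card.1 hA
  have h1 : ∑ a, ((p * Nat.card A : ℕ) : ℂ) * fdim (zpowers (φ a)) χ = ∑ i ∈ range (p * Nat.card A), ∑ a, χ (φ (a ^ i)) := by
    rw [sum_comm]
    refine sum_congr rfl fun a _ => ?_
    simp only [map_pow]
    rw [sum_pow (h.mono (by simp)) (by rw [← map_pow, mul_comm, pow_mul, pow_card_eq_one', one_pow, map_one])]
  have h2 : ∀ i, (∑ a, χ (φ (a ^ i))).re ≤ Nat.card A * (fdim φ.range χ : ℝ) +
      if p ∣ i then Nat.card A * ((fdim ⊥ χ : ℝ) - fdim φ.range χ) else 0 := fun i => by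
    split_ifs with hi
    · rw [Complex.re_sum, ← mul_add, add_sub_cancel, Nat.card_eq_fintype_card, ← nsmul_eq_mul]
      exact sum_le_card_nsmul _ _ _ fun a _ => (Complex.re_le_norm _).trans (h.norm_le ⟨_, rfl⟩)
    · have := (powCoprime (G := A) (n := i) (hn ▸ (hp.coprime_iff_not_dvd.2 hi).pow_left n)).sum_comp fun a => χ (φ a)
      simp only [powCoprime, Equiv.coe_fn_mk] at this
      rw [this, sum_hom φ h]; simp
  have h3 : #{i ∈ range (p * Nat.card A) | p ∣ i} = Nat.card A := by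
    rw [eq_comm, ← card_range (Nat.card A), card_range]
    conv_lhs => rw [← card_range (Nat.card A)]
    refine card_bij (fun i _ => p * i) (fun i hi => ?_) (fun i _ j _ e => Nat.eq_of_mul_eq_mul_left hp.pos e) ?_
    · simpa [hp.pos] using hi
    · intro i hi
      obtain ⟨hi, j, rfl⟩ := mem_filter.1 hi
      exact ⟨j, by simpa [hp.pos] using hi, rfl⟩
  have h4 := (congrArg Complex.re h1).le.trans ((Complex.re_sum _ _).le.trans (sum_le_sum fun i _ => h2 i))
  rw [sum_add_distrib, ← sum_filter, sum_const, sum_const, h3, card_range, ← mul_sum, ← Nat.cast_sum, ← Nat.cast_mul,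
    Complex.natCast_re] at h4
  have h5 : (0 : ℝ) < Nat.card A := Nat.cast_pos.2 Nat.card_pos
  rify [hp.one_le]
  simp only [nsmul_eq_mul] at h4
  push_cast at h4
  nlinarith

/-- the divisibility of `dvd_fix` -/
def D (p : ℕ) {A : Type*} [Group A] [Fintype A] (φ : A →* G) (N : Subgroup G) : Prop :=
  (∏ a, Nat.card ↥(N ⊓ C_(zpowers (φ a)))) ^ p ∣
    Nat.card N ^ Nat.card A * Nat.card ↥(N ⊓ C_(φ.range)) ^ ((p - 1) * Nat.card A)

theorem dvd_sol {A : Type*} [Group A] [Fintype A] (hp : p.Prime) (hA : IsPGroup p A) (n : ℕ) :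
    ∀ {X : Type u} [Group X] [Finite X] (φ : A →* X) {H : Subgroup X} [Group.IsSolvable H], Nat.card H = n →
    φ.range ≤ N_(H) → ¬ p ∣ Nat.card H → D p φ H := by
  induction n using Nat.strong_induction_on with
  | _ n ih =>
  intro X _ _ φ H _ hn hH hd
  by_cases h1 : H = ⊥
  · subst h1; simp [D]
  obtain ⟨q, N, hq, hNH, hN1, hN, hNn⟩ := exists_elementary_invariant h1
  have hL : φ.range ≤ N_(N) := hH.trans hNn
  have hHL : H ≤ N_(N) := Subgroup.le_normalizer.trans hNn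
  have hcN := pg_coprime hp (hA.of_surjective _ φ.rangeRestrict_surjective) (not_dvd_of_le hd hNH)
  have hHN : H ⊓ kr (qm N) = N := by rw [kr_qm, inf_eq_right.mpr hNH]
  have key : ∀ B ≤ φ.range, Nat.card ↥(H ⊓ C_(B)) = Nat.card ↥(im (qm N) H ⊓ C_(im (qm N) B)) * Nat.card ↥(N ⊓ C_(B)) := by
    intro B hB
    have := card_inf_centralizer_eq (qm N) (hB.trans hL) hHL (hB.trans hH)
      (by rw [hHN]; exact H01.coprime_of_le_left hcN hB) (Or.inr (H01.isSolvable_of_le inf_le_left))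
    rwa [hHN] at this
  have := isSolvable_im (f := qm N) H
  let ψ := (qm N).comp (φ.codRestrict _ fun a => hL ⟨a, rfl⟩)
  have e : ψ.range = im (qm N) φ.range := by
    ext y; exact ⟨fun ⟨a, h⟩ => ⟨_, ⟨a, rfl⟩, h⟩, fun ⟨⟨_, _⟩, ⟨a, rfl⟩, h⟩ => ⟨a, h⟩⟩
  have h2 := ih _ (hn ▸ card_im_lt (f := qm N) hHL (by rwa [hHN])) ψ (H := im (qm N) H) rfl (e ▸ im_le_normalizer hH)
    fun h => hd (h.trans (card_im_dvd _))
  have := Fact.mk hq
  obtain ⟨χ, hχ, h3, -⟩ := exists_charOn_of_elementary hN (not_dvd_of_coprime hq hN hN1 hcN) hL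
  have h4 : D p φ N := by
    have h2 := h3 ⊥ bot_le
    rw [centralizer_bot, inf_top_eq] at h2
    rw [D, prod_congr rfl fun a _ => h3 _ (by simp), h2, h3 _ le_rfl, prod_pow_eq_pow_sum, ← pow_mul, ← pow_mul, ← pow_mul,
      ← pow_add]
    exact pow_dvd_pow _ (sum_fdim_le hp hA φ hχ)
  have h5 := card_im_mul (f := qm N) hHL
  rw [hHN] at h5
  rw [D, prod_congr rfl fun a _ => key _ (by simp), key _ le_rfl, ← h5, prod_mul_distrib, mul_pow, mul_pow, mul_pow,
    mul_mul_mul_comm, ← e]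
  refine mul_dvd_mul ((dvd_of_eq ?_).trans h2) h4
  congr 1
  exact prod_congr rfl fun a _ => by rw [im_zpowers (hL ⟨a, rfl⟩)]; rfl

theorem dvd_fix {A : Type*} [Group A] [Fintype A] (hp : p.Prime) (hA : IsPGroup p A) (φ : A →* G)
    (hH : φ.range ≤ N_(H)) (hd : ¬ p ∣ Nat.card H) : D p φ H := by
  have hR : IsPGroup p φ.range := hA.of_surjective _ φ.rangeRestrict_surjective
  have h0 : ∀ N : Subgroup G, (∏ a, Nat.card ↥(N ⊓ C_(zpowers (φ a)))) ^ p ≠ 0 := fun N =>
    pow_ne_zero _ (prod_ne_zero_iff.2 fun _ _ => card_ne_zero _)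
  have h1 : ∀ N : Subgroup G, Nat.card N ^ Nat.card A * Nat.card ↥(N ⊓ C_(φ.range)) ^ ((p - 1) * Nat.card A) ≠ 0 :=
    fun N => mul_ne_zero (pow_ne_zero _ (card_ne_zero _)) (pow_ne_zero _ (card_ne_zero _))
  refine (Nat.factorization_prime_le_iff_dvd (h0 H) (h1 H)).1 fun s hs => ?_
  have hc := pg_coprime hp hR hd
  obtain ⟨T, hT, hBT⟩ := coprime_sylow_exists hs (Or.inl (pg_sol hp hR)) hH hc
  have key : ∀ D ≤ φ.range, (Nat.card ↥(H ⊓ C_(D))).factorization s = (Nat.card ↥(T ⊓ C_(D))).factorization s :=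
    fun D hD => H22.sylow_factorization hs (H22.sylow_inf_cent hs (Or.inl (sol_of_le (pg_sol hp hR) hD)) (hD.trans hH)
      (coprime_mono hc hD le_rfl) hT (hD.trans hBT))
  have := pg_sol hs (hT.pg hs)
  have h2 := (Nat.factorization_prime_le_iff_dvd (h0 T) (h1 T)).2 (dvd_sol hp hA _ φ rfl hBT (not_dvd_of_le hd hT.le)) s hs
  simp only [Nat.factorization_mul (pow_ne_zero _ (card_ne_zero _)) (pow_ne_zero _ (card_ne_zero _)), Nat.factorization_pow,
    Nat.factorization_prod fun _ _ => card_ne_zero _, Finsupp.add_apply, Finsupp.smul_apply, Finsupp.finsetSum_apply] at h2 ⊢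
  rwa [H22.sylow_factorization hs hT, key _ le_rfl, sum_congr rfl fun a _ => key _ (by simp)]

end Gh
end H24
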