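import Cfsg.Agent.BG.Api
import Cfsg.Agent.H27.Classes
import Cfsg.Agent.H03.Focal

/-!
Classes of `p`-elements versus a Sylow subgroup (namespace `H24`).
* `kpi_eq_ncard` : `k_p(G)` is the number of classes meeting the Sylow subgroup `P`.
* `kpi_le_of_notMem` : if `n ∈ N(P) \ C(P)` then `2 p k_p(G) ≤ (p + 1) |P|`; `kp_iff` (S3897 for `H27.kpi`).
* `kpi_union_le` : `k_{σ ∪ S}(G) ≤ k_σ(G) |G|_S`; `kpi_eq_carrier` (the `carrier` form of `k_π`).
-/

set_option autoImplicit false
open Cfsg BG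

namespace H24

universe u
variable {G : Type u} [Group G] [Finite G]

theorem kpi_eq_carrier (π : Set ℕ) :
    Nat.card {c : ConjClasses G // ∀ x ∈ c.carrier, ∀ r : ℕ, r.Prime → r ∣ orderOf x → r ∈ π} = H27.kpi π G := by
  unfold H27.kpi
  apply Nat.card_congr
  apply Equiv.subtypeEquivRight
  intro c
  constructor
  · rintro h q hq ⟨g, hg, hd⟩
    exact h g (ConjClasses.mem_carrier_iff_mk_eq.2 hg) q hq hd
  · intro h x hx r hr hd
    exact h r hr ⟨x, ConjClasses.mem_carrier_iff_mk_eq.1 hx, hd⟩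

theorem kpi_eq_ncard {p : ℕ} [hp : Fact p.Prime] (P : Sylow p G) :
    H27.kpi {p} G = (ConjClasses.mk '' ((P : Subgroup G) : Set G)).ncard := by
  unfold H27.kpi
  rw [← Nat.card_coe_set_eq]
  apply Nat.card_congr
  apply Equiv.subtypeEquivRight
  intro c
  obtain ⟨x, rfl⟩ := ConjClasses.exists_rep c
  rw [H27.kpi_cond_iff, H27.isPiElt_singleton_iff hp.out]
  constructor
  · intro h
    obtain ⟨g, hg⟩ := H27.exists_conj_mem_sylow P h
    exact ⟨_, hg, ConjClasses.mk_eq_mk_iff_isConj.2 (isConj_iff.2 ⟨g, rfl⟩).symm⟩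
  · rintro ⟨y, hy, e⟩
    obtain ⟨c, rfl⟩ := isConj_iff.1 (ConjClasses.mk_eq_mk_iff_isConj.1 e)
    rw [BG.orderOf_conj]
    exact H27.orderOf_of_mem_sylow hy

theorem kpi_le_of_notMem {p : ℕ} [hp : Fact p.Prime] (P : Sylow p G) {n : G} (hn : n ∈ N_((P : Subgroup G)))
    (hc : n ∉ C_((P : Subgroup G))) : 2 * p * H27.kpi {p} G ≤ (p + 1) * Nat.card (P : Subgroup G) := by
  classical
  rw [kpi_eq_ncard P]
  set A : Subgroup G := (P : Subgroup G) ⊓ C_[n] with hA
  have hlt : A < P := by
    refine lt_of_le_of_ne inf_le_left fun h => hc ?_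
    rw [← le_cent1_iff, ← h]; exact inf_le_right
  have hpA : p * Nat.card A ≤ Nat.card (P : Subgroup G) := by
    have h1 := card_mul_relIndex hlt.le
    obtain ⟨k, hk⟩ := pg_card hp.out P.isPGroup'
    have h2 : A.relIndex P ∣ p ^ k := hk ▸ relIndex_dvd_card _ _
    obtain ⟨j, -, hj⟩ := (Nat.dvd_prime_pow hp.out).1 h2
    have : j ≠ 0 := by
      rintro rfl
      exact hlt.not_ge (Subgroup.relIndex_eq_one.1 (by simpa using hj))
    rw [← h1, hj, mul_comm]
    exact Nat.mul_le_mul_left _ (Nat.le_self_pow this p)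
  letI := Fintype.ofFinite G
  set S : Finset G := Finset.univ.filter (fun x => x ∈ (P : Subgroup G) ∧ x ∉ A) with hS
  have h2 : 2 * (S.image ConjClasses.mk).card ≤ S.card := by
    apply Finset.mul_card_image_le_card
    intro c hc
    obtain ⟨x, hx, rfl⟩ := Finset.mem_image.1 hc
    have hx' := (Finset.mem_filter.1 hx).2
    have hne : n * x * n⁻¹ ≠ x := fun h => hx'.2 ⟨hx'.1, mem_cent1.2 (mul_inv_eq_iff_eq_mul.1 h).symm⟩
    have : ({x, n * x * n⁻¹} : Finset G) ⊆ S.filter (fun y => ConjClasses.mk y = ConjClasses.mk x) := by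
      intro y hy
      rcases Finset.mem_insert.1 hy with rfl | hy
      · exact Finset.mem_filter.2 ⟨hx, rfl⟩
      · rw [Finset.mem_singleton.1 hy]
        refine Finset.mem_filter.2 ⟨Finset.mem_filter.2 ⟨Finset.mem_univ _, conj_mem_of_norm hn hx'.1, fun h => hx'.2 ⟨hx'.1, ?_⟩⟩, ?_⟩
        · have := mem_cent1.1 h.2
          refine mem_cent1.2 ?_
          calc x * n = n⁻¹ * (n * x * n⁻¹ * n) * n := by group
            _ = n⁻¹ * (n * (n * x * n⁻¹)) * n := by rw [this]
            _ = n * x := by group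
        · exact ConjClasses.mk_eq_mk_iff_isConj.2 (isConj_iff.2 ⟨n, rfl⟩).symm
    have h3 := Finset.card_le_card this
    rwa [Finset.card_pair hne.symm] at h3
  have h3 : S.card + Nat.card A = Nat.card (P : Subgroup G) := by
    have e1 : ∀ K : Subgroup G, Nat.card K = (Finset.univ.filter (fun x => x ∈ K)).card := fun K => by
      rw [Nat.card_eq_fintype_card, Fintype.card_subtype]
    rw [e1, e1, ← Finset.card_union_of_disjoint]
    · congr 1; ext x
      simp only [hS, Finset.mem_union, Finset.mem_filter, Finset.mem_univ, true_and]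
      constructor
      · rintro (h | h)
        exacts [h.1, hlt.le h]
      · intro h; by_cases h' : x ∈ A
        exacts [Or.inr h', Or.inl ⟨h, h'⟩]
    · rw [Finset.disjoint_left]; intro x h1 h2
      exact (Finset.mem_filter.1 h1).2.2 (Finset.mem_filter.1 h2).2
  have h4 : (ConjClasses.mk '' ((P : Subgroup G) : Set G)).ncard ≤ (S.image ConjClasses.mk).card + Nat.card A := by
    have : ConjClasses.mk '' ((P : Subgroup G) : Set G) ⊆ ↑(S.image ConjClasses.mk) ∪ ConjClasses.mk '' (A : Set G) := by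
      rintro _ ⟨x, hx, rfl⟩
      by_cases h : x ∈ A
      · exact Or.inr ⟨x, h, rfl⟩
      · exact Or.inl (Finset.mem_coe.2 (Finset.mem_image_of_mem _ (Finset.mem_filter.2 ⟨Finset.mem_univ _, hx, h⟩)))
    refine (Set.ncard_le_ncard this).trans ((Set.ncard_union_le _ _).trans ?_)
    rw [Set.ncard_coe_finset]
    exact Nat.add_le_add_left ((Set.ncard_image_le).trans (le_of_eq (Nat.card_coe_set_eq _).symm)) _
  nlinarith

theorem kp_iff {p : ℕ} [hp : Fact p.Prime] (P : Sylow p G) :
    (p + 1) * Nat.card (P : Subgroup G) < 2 * p * H27.kpi {p} G ↔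
      HasNormalPComplement p G ∧ IsMulCommutative (P : Subgroup G) := by
  constructor
  · intro h
    have hN : N_((P : Subgroup G)) ≤ C_((P : Subgroup G)) := fun n hn => by
      by_contra hc
      exact absurd (kpi_le_of_notMem P hn hc) h.not_ge
    exact ⟨H03.hasNPC_of_normalizer_le_centralizer P hN, abelian_iff.2 ((le_norm _).trans hN)⟩
  · rintro ⟨h1, h2⟩
    have hc := H03.HasNPC.isComplement' h1 P
    have hinj : Set.InjOn ConjClasses.mk ((P : Subgroup G) : Set G) := by
      intro x hx y hy e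
      obtain ⟨g, rfl⟩ := isConj_iff.1 (ConjClasses.mk_eq_mk_iff_isConj.1 e)
      obtain ⟨⟨k, u⟩, rfl⟩ := hc.existsUnique g |>.exists
      have e1 : (u : G) * x * (u : G)⁻¹ = x := by rw [mul_comm_of_abelian h2 u.2 hx]; group
      have e2 : (k : G) * u * x * ((k : G) * u)⁻¹ * x⁻¹ = k * (x * (k : G)⁻¹ * x⁻¹) := by
        calc _ = k * ((u : G) * x * (u : G)⁻¹) * (k : G)⁻¹ * x⁻¹ := by group
          _ = _ := by rw [e1]; group
      have h3 : (k : G) * u * x * ((k : G) * u)⁻¹ * x⁻¹ ∈ pResidual p G := by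
        rw [e2]; exact mul_mem k.2 (Subgroup.Normal.conj_mem inferInstance _ (inv_mem k.2) x)
      have h4 := (Subgroup.disjoint_def.1 hc.disjoint) h3 (mul_mem hy (inv_mem hx))
      exact (mul_inv_eq_one.1 h4).symm
    rw [kpi_eq_ncard P, hinj.ncard_image, ← Nat.card_coe_set_eq]
    have := card_pos (P : Subgroup G)
    have := hp.out.one_lt
    show (p + 1) * Nat.card (P : Subgroup G) < 2 * p * Nat.card (P : Subgroup G)
    nlinarith

theorem kpi_union_le (σ : Set ℕ) (S : Finset ℕ) (hS : ∀ p ∈ S, p.Prime) :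
    H27.kpi (σ ∪ S) G ≤ H27.kpi σ G * ∏ p ∈ S, p ^ (Nat.card G).factorization p := by
  classical
  induction S using Finset.induction_on with
  | empty => simp
  | insert a S ha ih =>
    rw [Finset.coe_insert, Set.union_insert, Finset.prod_insert ha]
    refine (H27.kpi_insert_le _ (hS a (Finset.mem_insert_self _ _))).trans ?_
    rw [mul_comm (a ^ _), ← mul_assoc]
    exact Nat.mul_le_mul_right _ (ih fun p hp => hS p (Finset.mem_insert_of_mem hp))

end H24
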