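import Cfsg.Agent.BG.Api
import Cfsg.Agent.H04.MaxClass

/-!
# Index of the derived subgroup over a cyclic quotient

* `H24.index_commutator_mul`: `N ⊴ G`, `G = N⟨x⟩`:
  `[G : G'] * |N'| = [G : N] * #{n ∈ N | [x, n] ∈ N'}`.
* `H24.card_eq_commutator_mul_of_abelian`: `A ⊴ G` abelian, `G = A⟨x⟩`: `|A| = |G'| * |C_A(x)|`.
* `H24.sup_zpowers_eq_top_of_index_prime`.
-/

set_option autoImplicit false
open Cfsg BG Subgroup
open scoped commutatorElement

namespace H24

variable {G : Type*} [Group G]

theorem sup_zpowers_eq_top_of_index_prime {N : Subgroup G} (h : N.index.Prime) {x : G}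
    (hx : x ∉ N) : N ⊔ zpowers x = ⊤ := by
  have hc := H04.isCoatom_of_index_prime h
  apply hc.2
  refine lt_of_le_of_ne le_sup_left ?_
  intro e
  exact hx (e ▸ (mem_sup_right (mem_zpowers x) : x ∈ N ⊔ zpowers x))

/-- the map `n ↦ [x, n]` from `N` to `G / N'` -/
def commHom (N : Subgroup G) [N.Normal] (x : G) : N →* G ⧸ ⁅N, N⁆ :=
  MonoidHom.mk' (fun n => QuotientGroup.mk (x * n * x⁻¹ * (n : G)⁻¹)) (by
    intro n m
    rw [← QuotientGroup.mk_mul, QuotientGroup.eq]
    have hm : x * m * x⁻¹ * (m : G)⁻¹ ∈ N :=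
      N.mul_mem (Subgroup.Normal.conj_mem inferInstance _ m.2 x) (N.inv_mem m.2)
    have := commutator_mem_commutator (N.inv_mem hm) (H₁ := N) (H₂ := N) (N.inv_mem n.2)
    have h2 := Subgroup.Normal.conj_mem (H := ⁅N, N⁆) inferInstance _ this (n : G)
    convert h2 using 1
    simp only [commutatorElement_def, coe_mul]
    group)

theorem range_commHom (N : Subgroup G) [N.Normal] (x : G) (hx : N ⊔ zpowers x = ⊤) :
    (commHom N x).range = (commutator G).map (QuotientGroup.mk' ⁅N, N⁆) := by
  apply le_antisymm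
  · rintro _ ⟨n, rfl⟩
    exact ⟨_, commutator_mem_commutator (mem_top x) (mem_top (n : G)), rfl⟩
  · rw [map_le_iff_le_comap]
    set K := (commHom N x).range.comap (QuotientGroup.mk' ⁅N, N⁆) with hK
    have hmem : ∀ g, g ∈ K ↔ ∃ n ∈ N, (x * n * x⁻¹ * n⁻¹)⁻¹ * g ∈ ⁅N, N⁆ := by
      intro g
      constructor
      · rintro ⟨n, hn⟩
        exact ⟨n, n.2, QuotientGroup.eq.1 hn⟩
      · rintro ⟨n, hn, h⟩
        exact ⟨⟨n, hn⟩, QuotientGroup.eq.2 h⟩
    have hNN : ⁅N, N⁆ ≤ K := fun g hg => (hmem g).2 ⟨1, N.one_mem, by simpa using hg⟩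
    have hKN : K ≤ N := by
      intro g hg
      obtain ⟨n, hn, h⟩ := (hmem g).1 hg
      have h1 : x * n * x⁻¹ * n⁻¹ ∈ N :=
        N.mul_mem (Subgroup.Normal.conj_mem inferInstance _ hn x) (N.inv_mem hn)
      have := N.mul_mem h1 (commutator_le_left N N h)
      rwa [mul_inv_cancel_left] at this
    have hconj : ∀ y ∈ N ⊔ zpowers x, ∀ g ∈ K, y * g * y⁻¹ ∈ K := by
      have : N ⊔ zpowers x ≤ N_(K) := by
        refine sup_le ?_ ?_
        · intro n hn
          have key : ∀ n ∈ N, ∀ g ∈ K, n * g * n⁻¹ ∈ K := by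
            intro n hn g hg
            have := K.mul_mem (hNN (commutator_mem_commutator hn (hKN hg))) hg
            convert this using 1
            simp only [commutatorElement_def]; group
          rw [mem_normalizer_iff]
          intro g
          refine ⟨key n hn g, fun h => ?_⟩
          have := key _ (N.inv_mem hn) _ h
          simpa [mul_assoc] using this
        · rw [zpowers_le]
          have key : ∀ y, Commute y x → ∀ g ∈ K, y * g * y⁻¹ ∈ K := by
            intro y hy g hg
            obtain ⟨n, hn, h⟩ := (hmem g).1 hg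
            refine (hmem _).2 ⟨y * n * y⁻¹, Subgroup.Normal.conj_mem inferInstance _ hn y, ?_⟩
            have := Subgroup.Normal.conj_mem (H := ⁅N, N⁆) inferInstance _ h y
            convert this using 1
            have e1 : x * y = y * x := hy.eq.symm
            have e2 : y⁻¹ * x⁻¹ = x⁻¹ * y⁻¹ := by rw [← mul_inv_rev, ← mul_inv_rev, e1]
            calc (x * (y * n * y⁻¹) * x⁻¹ * (y * n * y⁻¹)⁻¹)⁻¹ * (y * g * y⁻¹)
                = ((x * y) * n * (y⁻¹ * x⁻¹) * (y * n * y⁻¹)⁻¹)⁻¹ * (y * g * y⁻¹) := by group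
              _ = _ := by rw [e1, e2]; group
          rw [mem_normalizer_iff]
          intro g
          refine ⟨key x (Commute.refl x) g, fun h => ?_⟩
          have := key _ (Commute.refl x).inv_left _ h
          simpa [mul_assoc] using this
      intro y hy g hg
      exact (mem_normalizer_iff.1 (this hy) g).1 hg
    haveI hKn : K.Normal := ⟨fun g hg y => hconj y (hx ▸ mem_top y) g hg⟩
    have hcomm : ∀ n ∈ N, ⁅x, n⁆ ∈ K := fun n hn => (hmem _).2 ⟨n, hn, by
      rw [commutatorElement_def, inv_mul_cancel]; exact one_mem _⟩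
    -- the quotient by `K` is commutative
    have hc : ∀ a ∈ N ⊔ zpowers x, ∀ b ∈ N ⊔ zpowers x,
        Commute (QuotientGroup.mk' K a) (QuotientGroup.mk' K b) := by
      have h1 : ∀ a b : G, ⁅a, b⁆ ∈ K → Commute (QuotientGroup.mk' K a) (QuotientGroup.mk' K b) := by
        intro a b h
        rw [← commutatorElement_eq_one_iff_commute, ← map_commutatorElement]
        exact (QuotientGroup.eq_one_iff _).2 h
      have h2 : ∀ a : G, (∀ n ∈ N, Commute (QuotientGroup.mk' K a) (QuotientGroup.mk' K n)) →
          Commute (QuotientGroup.mk' K a) (QuotientGroup.mk' K x) →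
          ∀ b ∈ N ⊔ zpowers x, Commute (QuotientGroup.mk' K a) (QuotientGroup.mk' K b) := by
        intro a ha hax b hb
        have : N ⊔ zpowers x ≤ (centralizer {QuotientGroup.mk' K a}).comap (QuotientGroup.mk' K) := by
          refine sup_le (fun n hn => ?_) (zpowers_le.2 ?_)
          · exact mem_centralizer_singleton_iff.2 (ha n hn).eq.symm
          · exact mem_centralizer_singleton_iff.2 hax.eq.symm
        exact (mem_centralizer_singleton_iff.1 (this hb) : _ = _).symm
      intro a ha b hb
      refine h2 a (fun n hn => ?_) ?_ b hb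
      · exact (h2 n (fun m hm => h1 _ _ (hNN (commutator_mem_commutator hn hm)))
          (h1 _ _ (hcomm n hn)).symm a ha).symm
      · exact (h2 x (fun m hm => h1 _ _ (hcomm m hm)) (Commute.refl _) a ha).symm
    rw [_root_.commutator_def, commutator_le]
    intro a _ b _
    have := hc a (hx ▸ mem_top a) b (hx ▸ mem_top b)
    rw [← commutatorElement_eq_one_iff_commute, ← map_commutatorElement] at this
    exact (QuotientGroup.eq_one_iff _).1 this

theorem index_commutator_mul [Finite G] (N : Subgroup G) [N.Normal] (x : G)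
    (hx : N ⊔ zpowers x = ⊤) :
    (commutator G).index * Nat.card (⁅N, N⁆ : Subgroup G) =
      N.index * Nat.card {n : N // x * n * x⁻¹ * (n : G)⁻¹ ∈ ⁅N, N⁆} := by
  have h1 : Nat.card (commHom N x).ker * Nat.card (commHom N x).range = Nat.card N := by
    rw [← index_ker, card_mul_index]
  have h2 : Nat.card (commHom N x).ker = Nat.card {n : N // x * n * x⁻¹ * (n : G)⁻¹ ∈ ⁅N, N⁆} := by
    refine Nat.card_congr (Equiv.subtypeEquivRight ?_)
    intro n
    exact QuotientGroup.eq_one_iff _
  have h3 : Nat.card (commHom N x).range * Nat.card (⁅N, N⁆ : Subgroup G) =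
      Nat.card (commutator G) := by
    rw [range_commHom N x hx]
    have hle : ⁅N, N⁆ ≤ commutator G := commutator_mono le_top le_top
    have h4 := card_mul_index ((QuotientGroup.mk' ⁅N, N⁆).comp (commutator G).subtype).ker
    rw [index_ker, MonoidHom.range_comp, range_subtype, ← MonoidHom.comap_ker,
      QuotientGroup.ker_mk'] at h4
    rw [← h4, mul_comm]
    congr 1
    exact (Nat.card_congr (subgroupOfEquivOfLe hle).toEquiv).symm
  have h5 := card_mul_index (commutator G)
  have h6 := card_mul_index N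
  have hpos : 0 < Nat.card (commHom N x).range := Nat.card_pos
  apply Nat.eq_of_mul_eq_mul_left hpos
  rw [← h2]
  calc _ = (Nat.card (commHom N x).range * Nat.card (⁅N, N⁆ : Subgroup G)) * (commutator G).index := by ring
    _ = Nat.card N * N.index := by rw [h3, h5, h6]
    _ = _ := by rw [← h1]; ring

theorem card_eq_commutator_mul_of_abelian [Finite G] (A : Subgroup G) [A.Normal]
    (hA : IsMulCommutative A) (x : G) (hx : A ⊔ zpowers x = ⊤) :
    Nat.card A = Nat.card (commutator G) * Nat.card (A ⊓ C_[x] : Subgroup G) := by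
  have h := index_commutator_mul A x hx
  have hb : ⁅A, A⁆ = ⊥ := by
    rw [commutator_eq_bot_iff_le_centralizer]
    exact le_centralizer_iff_isMulCommutative.2 hA
  rw [hb, card_bot, mul_one] at h
  have h2 : Nat.card {n : A // x * n * x⁻¹ * (n : G)⁻¹ ∈ (⊥ : Subgroup G)} =
      Nat.card (A ⊓ C_[x] : Subgroup G) := by
    refine Nat.card_congr ⟨fun n => ⟨n.1.1, n.1.2, ?_⟩, fun n => ⟨⟨n.1, n.2.1⟩, ?_⟩,
      fun _ => rfl, fun _ => rfl⟩
    · have := mem_bot.1 n.2
      rw [mul_inv_eq_one, mul_inv_eq_iff_eq_mul] at this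
      exact mem_centralizer_singleton_iff.2 this.symm
    · have := mem_centralizer_singleton_iff.1 n.2.2
      rw [mem_bot, mul_inv_eq_one, mul_inv_eq_iff_eq_mul]
      exact this.symm
  rw [h2] at h
  have h5 := card_mul_index (commutator G)
  have h6 := card_mul_index A
  have hpos : 0 < A.index := Nat.pos_of_ne_zero index_ne_zero_of_finite
  apply Nat.eq_of_mul_eq_mul_left hpos
  calc A.index * Nat.card A = Nat.card (commutator G) * (commutator G).index := by
        rw [h5, ← h6, mul_comm]
    _ = _ := by rw [h]; ring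

end H24
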