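import Cfsg.Agent.H24.Wall4

/-!
# Involutions in characteristic 2: centraliser orders in `Sp` and `Ω⁺`, the set `V(t)` (namespace `H24.Wall`)

* `card_altSet`, `card_cent_sp`, `card_ker_odd`, `card_ker_even`, `card_ker_alt`
-/

set_option autoImplicit false

open Module H10

namespace H24.Wall

variable {F V : Type*} [Field F] [AddCommGroup V] [Module F V] {φ : Form F V}
  [φ.Nondeg] [FiniteDimensional F V] [Finite F] [CharP F 2]

theorem exists_half (s : ℕ) : ∃ t, s * (s - 1) = 2 * t ∧ s ^ 2 = 2 * t + s := by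
  obtain ⟨t, ht⟩ := Nat.even_mul_pred_self s
  refine ⟨t, by omega, ?_⟩
  rcases s with _ | s
  · simp at ht ⊢; omega
  · simp only [Nat.add_sub_cancel] at ht; nlinarith

theorem card_altSet (hσ : ∀ a, φ.σ a = a) {g : φ.Isom} (hg : g * g = 1) (ha : ¬ Alt g) :
    Nat.card {v : V // φ.B v (N g v) = 0} * Nat.card F = Nat.card F ^ finrank F V := by
  have hs : ∀ u v, φ.B u (N g v) = φ.B v (N g u) := fun u v => by
    rw [← chi_N, ← chi_N, ← chiB_apply hσ, ← chiB_apply hσ, (chiB_symm hσ hg).eq]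
  let f : V →+ F := AddMonoidHom.mk' (fun v => φ.B v (N g v)) fun u v => by
    simp only [map_add, LinearMap.add_apply]
    rw [hs u v]; linear_combination (φ.B v (N g u)) * CharTwo.two_eq_zero (R := F)
  have hf : Function.Surjective f := fun c => by
    obtain ⟨v, hv⟩ := not_forall.1 ha
    obtain ⟨a, ha⟩ := (isSquare_of_charTwo' (c / φ.B v (N g v)))
    refine ⟨a • v, ?_⟩
    change φ.B (a • v) (N g (a • v)) = c
    rw [(N g).map_smul, φ.B_smul_left, map_smul, smul_eq_mul, hσ, ← mul_assoc, ← ha]; field_simp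
  haveI : Finite V := Module.finite_of_finite F
  rw [← Module.natCard_eq_pow_finrank, AddSubgroup.card_eq_card_quotient_mul_card_addSubgroup f.ker,
    Nat.card_congr (QuotientAddGroup.quotientKerEquivOfSurjective f hf).toEquiv, mul_comm]
  rfl

theorem card_cent_sp (hA : H09.IsAltF φ) {g : φ.Isom} (hg : g * g = 1) {s m : ℕ} (hs : finrank F (W g) = s)
    (hn : finrank F V = 2 * m) : Nat.card (Subgroup.centralizer ({g} : Set φ.Isom)) =
      Nat.card F ^ (2 * m * s - (3 * s ^ 2 - s) / 2) * Nat.card (autChi g) * spOrd (Nat.card F) (m - s) := by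
  have := two_mul_rank_le hg
  obtain ⟨r, rfl⟩ : ∃ r, m = s + r := ⟨m - s, by omega⟩
  obtain ⟨t, h1, h2⟩ := exists_half s
  have : 2 * (s + r) * s - (3 * s ^ 2 - s) / 2 = s * (2 * r) + s * (s - 1) / 2 + s := by
    have : 2 * (s + r) * s = 2 * s ^ 2 + s * (2 * r) := by ring
    omega
  rw [card_centralizer, card_fix_sp hA hg hs hn, this, Nat.add_sub_cancel_left]; ring

variable (hQ : φ.IsQuad) (hG : φ.Good) {m : ℕ} (hn : finrank F V = 2 * m) (hp : φ.HasTS m)
include hQ hG hn hp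

theorem card_ker_odd {g : φ.Isom} (hg : g * g = 1) {s : ℕ} (hs : finrank F (W g) = s) (ho : Odd s) :
    Nat.card {k : φ.Isom // φ.dickson k = 1 ∧ k * g = g * k} = Nat.card F ^ (2 * m * (s - 1) - (3 * s ^ 2 - 3 * s) / 2) *
      spOrd (Nat.card F) ((s - 1) / 2) * spOrd (Nat.card F) (m - s) := by
  haveI : Finite V := Module.finite_of_finite F
  have ha : ¬ Alt g := fun h => Nat.not_even_iff_odd.2 ho (hs ▸ h.even hQ.σ_eq)
  obtain ⟨v, hv, hc⟩ := exists_refl_comm hQ hg fun h => ha h.1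
  have h1 := card_centralizer_ker φ.dickson g _ hc (by rw [hQ.dickson_refl hG hv]; decide)
  have := two_mul_rank_le hg
  obtain ⟨j, rfl⟩ := ho
  obtain ⟨r, rfl⟩ : ∃ r, m = 2 * j + 1 + r := ⟨m - (2 * j + 1), by omega⟩
  have h2 := card_fix_nonalt hQ hn hp hg ha hs rfl
  rw [card_centralizer, card_autChi_odd hQ.σ_eq hg hs] at h1
  have h3 : 2 * j * (2 * r + 2) + 2 * j * (2 * j - 1) / 2 =
      2 * j + (2 * (2 * j + 1 + r) * (2 * j + 1 - 1) - (3 * (2 * j + 1) ^ 2 - 3 * (2 * j + 1)) / 2) := by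
    obtain ⟨t, h1, h2⟩ := exists_half (2 * j)
    have h3 : (2 * j + 1) ^ 2 = (2 * j) ^ 2 + 4 * j + 1 := by ring
    have h4 : 2 * (2 * j + 1 + r) * (2 * j + 1 - 1) = 2 * (2 * j) ^ 2 + 4 * j + 4 * (j * r) := by
      simp only [Nat.add_sub_cancel]; ring
    have h5 : 2 * j * (2 * r + 2) = 4 * (j * r) + 4 * j := by ring
    omega
  rw [h3, pow_add] at h2
  have hq : 0 < Nat.card F ^ (2 * j) := pow_pos Nat.card_pos _
  rw [show (2 * j + 1 - 1) / 2 = j by omega, Nat.add_sub_cancel_left]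
  refine Nat.eq_of_mul_eq_mul_left (mul_pos hq two_pos) ?_
  rw [mul_assoc, h1, mul_left_comm, h2]; ring

theorem card_ker_even {g : φ.Isom} (hg : g * g = 1) {s : ℕ} (hs : finrank F (W g) = s) (he : Even s) (ha : ¬ Alt g) :
    Nat.card {k : φ.Isom // φ.dickson k = 1 ∧ k * g = g * k} =
      Nat.card F ^ (2 * m * (s - 1) - (3 * s ^ 2 - 5 * s) / 2 - 1) *
      spOrd (Nat.card F) ((s - 2) / 2) * spOrd (Nat.card F) (m - s) := by
  haveI : Finite V := Module.finite_of_finite F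
  obtain ⟨v, hv, hc⟩ := exists_refl_comm hQ hg fun h => ha h.1
  have h1 := card_centralizer_ker φ.dickson g _ hc (by rw [hQ.dickson_refl hG hv]; decide)
  have := two_mul_rank_le hg
  have h0 : 0 < s := hs ▸ rank_pos (by rintro rfl; exact ha fun x => by simp [N_apply])
  obtain ⟨j, rfl⟩ : ∃ j, s = 2 * j + 2 := by obtain ⟨j, rfl⟩ := he; exact ⟨j - 1, by omega⟩
  obtain ⟨r, rfl⟩ : ∃ r, m = 2 * j + 1 + 1 + r := ⟨m - (2 * j + 2), by omega⟩
  have h2 := card_fix_nonalt hQ hn hp hg ha (k := 2 * j + 1) hs rfl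
  rw [card_centralizer, card_autChi_even hQ.σ_eq hg ha hs] at h1
  have h3 : (2 * j + 1) * (2 * r + 2) + (2 * j + 1) * (2 * j + 1 - 1) / 2 =
      2 * (2 * j + 1 + 1 + r) * (2 * j + 2 - 1) - (3 * (2 * j + 2) ^ 2 - 5 * (2 * j + 2)) / 2 - 1 := by
    have h3 : (2 * j + 2) ^ 2 = 4 * j ^ 2 + 8 * j + 4 := by ring
    have h4 : 2 * (2 * j + 1 + 1 + r) * (2 * j + 2 - 1) = 8 * j ^ 2 + 12 * j + 4 + 4 * (j * r) + 2 * r := by
      rw [show 2 * j + 2 - 1 = 2 * j + 1 by omega]; ring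
    have h5 : (2 * j + 1) * (2 * r + 2) = 4 * (j * r) + 4 * j + 2 * r + 2 := by ring
    have h6 : (2 * j + 1) * (2 * j + 1 - 1) = 4 * j ^ 2 + 2 * j := by simp only [Nat.add_sub_cancel]; ring
    omega
  rw [h3] at h2
  rw [show (2 * j + 2 - 2) / 2 = j by omega, show 2 * j + 1 + 1 + r - (2 * j + 2) = r by omega]
  refine Nat.eq_of_mul_eq_mul_left two_pos ?_
  rw [h1, mul_right_comm, h2]; ring

theorem card_ker_alt {g : φ.Isom} (hg : g * g = 1) {s : ℕ} (hs : finrank F (W g) = s) (ha : Alt g) :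
    Nat.card {k : φ.Isom // φ.dickson k = 1 ∧ k * g = g * k} =
      Nat.card F ^ (2 * m * s - (3 * s ^ 2 + s) / 2) * spOrd (Nat.card F) (s / 2) *
      (if s = m then 1 else Nat.card F ^ ((m - s) * (m - s - 1)) * (Nat.card F ^ (m - s) - 1) *
        ∏ i : Fin (m - s - 1), (Nat.card F ^ (2 * ((i : ℕ) + 1)) - 1)) := by
  haveI : Finite V := Module.finite_of_finite F
  have := two_mul_rank_le hg
  obtain ⟨r, rfl⟩ : ∃ r, m = s + r := ⟨m - s, by omega⟩
  obtain ⟨j, hj⟩ := ha.even hQ.σ_eq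
  obtain ⟨U₀, h1, h2, -, -, h5, h6⟩ := exists_fix_TS (Alt.ts g hQ ha) hs
  haveI := h1.nondeg
  have hT : Nat.card φ.T.ker = 1 := by
    rw [AddSubgroup.card_eq_one, eq_bot_iff]; intro a h; simpa [hQ.T_eq] using h
  have hd : finrank F U₀ = 2 * r := by omega
  have hC := card_centralizer g
  rw [card_autChi_alt hQ.σ_eq ha (k := s / 2) (by omega), h5, hT, one_pow, mul_one, hd] at hC
  have h3 : 2 * (s + r) * s - (3 * s ^ 2 + s) / 2 = s * (2 * r) + s * (s - 1) / 2 := by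
    obtain ⟨t, h1, h2⟩ := exists_half s
    have : 2 * (s + r) * s = 2 * s ^ 2 + s * (2 * r) := by ring
    omega
  rw [h3]
  rcases r with _ | r
  · haveI : Subsingleton U₀ := Module.finrank_zero_iff.1 (by omega : finrank F U₀ = 0)
    have : Nat.card (φ.restrict U₀).Isom = 1 :=
      Nat.card_eq_one_iff_unique.2 ⟨⟨fun a b => Form.Isom.ext fun v => Subsingleton.elim _ _⟩, ⟨1⟩⟩
    rw [this, mul_one] at hC
    rw [if_pos (by omega), mul_one, mul_comm, ← hC]
    refine Nat.card_congr (Equiv.subtypeEquivRight fun k => ?_)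
    rw [Subgroup.mem_centralizer_singleton_iff]
    refine ⟨fun h => h.2, fun h => ⟨?_, h⟩⟩
    rw [hQ.dickson_eq_one_iff_fam hG hn (Alt.ts g hQ ha) (by omega), map_W (h := g) (by rw [h]; simp), inf_idem, hs]
    exact ⟨s, by omega⟩
  · obtain ⟨v, hv, hc⟩ := exists_refl_comm hQ hg fun h => by omega
    have h1 := card_centralizer_ker φ.dickson g _ hc (by rw [hQ.dickson_refl hG hv]; decide)
    rw [hC, (hQ.restrict U₀).card_Isom_plus (m := r) (by omega) (h6 _ hp), oPlus] at h1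
    rw [if_neg (by omega), Nat.add_sub_cancel_left, ← Finset.prod_range fun i => Nat.card F ^ (2 * (i + 1)) - 1]
    refine Nat.eq_of_mul_eq_mul_left two_pos ?_
    rw [h1]; ring

end H24.Wall
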